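import Cfsg.Agent.H789.HT.PThree
import Cfsg.Agent.H755.HT.Numbers

/-!
# S3577, TEAM HT-E, P5 (helper789, task 5096): `p = 3`

`p_three`: the last case of the list, `p = 3`, `E` of order `2 ^ 5`: `|W| = 81`.
-/

set_option autoImplicit false

namespace Cfsg.Agent.H789.HT

open Cfsg.Agent.H828.HT Cfsg.Agent.H662.HT Cfsg.Agent.H528.HT

universe u

theorem p_three [Fact (Nat.Prime 3)] {W : Type u} [AddCommGroup W] [Module (ZMod 3) W] [Nontrivial W] [Finite W]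
    {G A E : Subgroup (W ≃ₗ[ZMod 3] W)} (hEG : E ≤ G) (hcop : ¬ 3 ∣ Nat.card G)
    {h : ℕ} (hh : Half G h) (h2 : 2 ≤ h)
    (hnA : ∀ g ∈ G, ∀ a ∈ A, g * a * g⁻¹ ∈ A) (hnE : ∀ g ∈ G, ∀ x ∈ E, g * x * g⁻¹ ∈ E)
    (hcyc : IsCyclic A) (h4 : ¬ 4 ∣ Nat.card A) (hAE : ∀ a ∈ A, ∀ x ∈ E, a * x = x * a)
    (hC : ∀ g ∈ G, (∀ x ∈ E, g * x = x * g) → (∀ a ∈ A, g * a = a * g) → g ∈ A)
    (H : Sym 2 2 E W) (hz : Nat.card (Subgroup.center E) = 2) :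
    Nat.card W = 81 :=
  p_three_of_numbers hEG hcop hh h2 hnA hnE hcyc h4 hAE hC H hz
    (fun h => Cfsg.Agent.H755.HT.Sym_numbers_plus H hz le_rfl h)
    (fun h => Cfsg.Agent.H755.HT.Sym_numbers_minus H hz le_rfl h)

end Cfsg.Agent.H789.HT
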