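import Cfsg.Agent.H528.HT.Frame

/-!
# S3577 (TEAM HT-E), P5, first part: the small submodules of a frame over `GF(3)` (helper789)

`cyc E v`: the `E`-submodule generated by `v`. For a frame `t` of `E` on the `GF(3)`-space `W` put
`LL = {v | t 0 v = v, t 1 (t 2 v) + t 1 (t 3 v) = v}`; `|U| = |U ∩ LL| ^ 4` for every `E`-submodule `U`, and the number of
non-zero vectors generating a submodule of order `81` is `40 (|LL| - 1)`.
-/

set_option autoImplicit false

namespace Cfsg.Agent.H789.HT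

open Cfsg.Agent.H828.HT Cfsg.Agent.H662.HT Cfsg.Agent.H528.HT

universe u

section cyc

variable {p : ℕ} [Fact p.Prime] {W : Type u} [AddCommGroup W] [Module (ZMod p) W]

/-- invariant submodules -/
def Iv (E : Subgroup (W ≃ₗ[ZMod p] W)) (U : Submodule (ZMod p) W) : Prop := ∀ x ∈ E, ∀ u ∈ U, x u ∈ U

/-- the invariant submodule generated by a vector -/
def cyc (E : Subgroup (W ≃ₗ[ZMod p] W)) (v : W) : Submodule (ZMod p) W := sInf {U | Iv E U ∧ v ∈ U}

theorem mem_cyc (E : Subgroup (W ≃ₗ[ZMod p] W)) (v : W) : v ∈ cyc E v := by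
  rw [cyc, Submodule.mem_sInf]
  intro U hU
  exact hU.2

theorem cyc_le {E : Subgroup (W ≃ₗ[ZMod p] W)} {v : W} {U : Submodule (ZMod p) W} (hU : Iv E U) (hv : v ∈ U) :
    cyc E v ≤ U := sInf_le ⟨hU, hv⟩

theorem iv_cyc (E : Subgroup (W ≃ₗ[ZMod p] W)) (v : W) : Iv E (cyc E v) := by
  intro x hx u hu
  rw [cyc, Submodule.mem_sInf] at hu ⊢
  intro U hU
  exact hU.1 x hx u (hu U hU)

theorem iv_map {E : Subgroup (W ≃ₗ[ZMod p] W)} {g : W ≃ₗ[ZMod p] W} (hg' : ∀ x ∈ E, g⁻¹ * x * g ∈ E)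
    {U : Submodule (ZMod p) W} (hU : Iv E U) : Iv E (U.map (g : W →ₗ[ZMod p] W)) := by
  rintro x hx _ ⟨u, hu, rfl⟩
  refine ⟨(g⁻¹ * x * g) u, hU _ (hg' x hx) u hu, ?_⟩
  change g (g⁻¹ (x (g u))) = x (g u)
  exact g.apply_symm_apply _

theorem cyc_smul_le {E : Subgroup (W ≃ₗ[ZMod p] W)} {g : W ≃ₗ[ZMod p] W} (hg' : ∀ x ∈ E, g⁻¹ * x * g ∈ E) (v : W) :
    cyc E (g v) ≤ (cyc E v).map (g : W →ₗ[ZMod p] W) :=
  cyc_le (iv_map hg' (iv_cyc E v)) ⟨v, mem_cyc E v, rfl⟩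

theorem card_cyc_le [Finite W] {E : Subgroup (W ≃ₗ[ZMod p] W)} {g : W ≃ₗ[ZMod p] W}
    (hg' : ∀ x ∈ E, g⁻¹ * x * g ∈ E) (v : W) : Nat.card (cyc E (g v)) ≤ Nat.card (cyc E v) := by
  have h1 : Nat.card (cyc E (g v)) ≤ Nat.card ((cyc E v).map (g : W →ₗ[ZMod p] W)) :=
    Nat.card_le_card_of_injective (Submodule.inclusion (cyc_smul_le hg' v)) (Submodule.inclusion_injective _)
  refine h1.trans (le_of_eq ?_)
  exact (Nat.card_congr ((cyc E v).equivMapOfInjective (g : W →ₗ[ZMod p] W) g.injective).toEquiv).symm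

theorem card_cyc_smul [Finite W] {E : Subgroup (W ≃ₗ[ZMod p] W)} {g : W ≃ₗ[ZMod p] W}
    (hg : ∀ x ∈ E, g * x * g⁻¹ ∈ E) (hg' : ∀ x ∈ E, g⁻¹ * x * g ∈ E) (v : W) :
    Nat.card (cyc E (g v)) = Nat.card (cyc E v) := by
  refine le_antisymm (card_cyc_le hg' v) ?_
  have h1 := card_cyc_le (E := E) (g := g⁻¹) (by simpa using hg) (g v)
  have h2 : g⁻¹ (g v) = v := g.symm_apply_apply v
  rwa [h2] at h1

end cyc

section frame

variable [Fact (Nat.Prime 3)] {W : Type u} [AddCommGroup W] [Module (ZMod 3) W]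

theorem add_self (v : W) : v + v = -v := by
  have h : (3 : ZMod 3) = 0 := by exact_mod_cast ZMod.natCast_self 3
  have h1 : v + v + v = 0 := by
    have : ((3 : ZMod 3)) • v = v + v + v := by
      rw [show (3 : ZMod 3) = 1 + 1 + 1 by norm_num, add_smul, add_smul, one_smul]
    rw [← this, h, zero_smul]
  exact eq_neg_of_add_eq_zero_left h1

/-- `t 1 t 2 + t 1 t 3` -/
def xx (t : Fin 5 → (W ≃ₗ[ZMod 3] W)) : W →ₗ[ZMod 3] W :=
  ((t 1 : W →ₗ[ZMod 3] W).comp (t 2 : W →ₗ[ZMod 3] W)) + ((t 1 : W →ₗ[ZMod 3] W).comp (t 3 : W →ₗ[ZMod 3] W))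

/-- `t 2 t 3` -/
def nn (t : Fin 5 → (W ≃ₗ[ZMod 3] W)) : W →ₗ[ZMod 3] W := (t 2 : W →ₗ[ZMod 3] W).comp (t 3 : W →ₗ[ZMod 3] W)

theorem xx_apply (t : Fin 5 → (W ≃ₗ[ZMod 3] W)) (v : W) : xx t v = t 1 (t 2 v) + t 1 (t 3 v) := rfl
theorem nn_apply (t : Fin 5 → (W ≃ₗ[ZMod 3] W)) (v : W) : nn t v = t 2 (t 3 v) := rfl

variable {t : Fin 5 → (W ≃ₗ[ZMod 3] W)} (ht : Frame5 t)

include ht

theorem sqt (k : Fin 5) (v : W) : t k (t k v) = v :=
  congrArg (fun f : W ≃ₗ[ZMod 3] W => f v) (ht.sq k)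

theorem antit {j k : Fin 5} (h : j ≠ k) (v : W) : t j (t k v) = -(t k (t j v)) := ht.anti j k h v

theorem r10 (v : W) : t 1 (t 0 v) = -(t 0 (t 1 v)) := antit ht (by decide) v
theorem r20 (v : W) : t 2 (t 0 v) = -(t 0 (t 2 v)) := antit ht (by decide) v
theorem r30 (v : W) : t 3 (t 0 v) = -(t 0 (t 3 v)) := antit ht (by decide) v
theorem r21 (v : W) : t 2 (t 1 v) = -(t 1 (t 2 v)) := antit ht (by decide) v
theorem r31 (v : W) : t 3 (t 1 v) = -(t 1 (t 3 v)) := antit ht (by decide) v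
theorem r32 (v : W) : t 3 (t 2 v) = -(t 2 (t 3 v)) := antit ht (by decide) v

theorem xx_sq (v : W) : xx t (xx t v) = v := by
  simp only [xx_apply, map_add, r21 ht, r31 ht, r32 ht, sqt ht, map_neg, neg_neg]
  trans -(v + v)
  · abel
  · rw [add_self, neg_neg]

theorem nn_xx (v : W) : nn t (xx t v) = -(xx t (nn t v)) := by
  simp only [xx_apply, nn_apply, map_add, r21 ht, r31 ht, r32 ht, sqt ht, map_neg, neg_neg]
  abel

theorem nn_sq (v : W) : nn t (nn t v) = -v := by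
  simp only [nn_apply, r32 ht, sqt ht, map_neg]

theorem t0_xx (v : W) : t 0 (xx t v) = xx t (t 0 v) := by
  simp only [xx_apply, map_add, r10 ht, r20 ht, r30 ht, map_neg, neg_neg]

theorem t0_nn (v : W) : t 0 (nn t v) = nn t (t 0 v) := by
  simp only [nn_apply, r20 ht, r30 ht, map_neg, neg_neg]

/-- the fixed points of `t 0` and `xx t` on `U` -/
def LL (t : Fin 5 → (W ≃ₗ[ZMod 3] W)) (U : Submodule (ZMod 3) W) : Submodule (ZMod 3) W :=
  fixF (fixF U (t 0 : W →ₗ[ZMod 3] W)) (xx t)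

omit ht in
theorem mem_LL {U : Submodule (ZMod 3) W} {v : W} : v ∈ LL t U ↔ v ∈ U ∧ t 0 v = v ∧ xx t v = v := by
  rw [LL, mem_fixF, mem_fixF, and_assoc]
  rfl

/-- **the order of an invariant submodule** -/
theorem card_four [Finite W] {U : Submodule (ZMod 3) W} (hU : ∀ k, ∀ v ∈ U, t k v ∈ U) :
    Nat.card U = Nat.card (LL t U) ^ 4 := by
  have h1 : Anti (p := 3) U (t 0 : W →ₗ[ZMod 3] W) (t 1 : W →ₗ[ZMod 3] W) (t 1 : W →ₗ[ZMod 3] W) :=
    ⟨hU 0, hU 1, hU 1, fun v _ => sqt ht 0 v, fun v _ => r10 ht v, fun v _ => sqt ht 1 v, fun v _ => sqt ht 1 v⟩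
  have h2 : Anti (p := 3) (fixF U (t 0 : W →ₗ[ZMod 3] W)) (xx t) (nn t) (-(nn t) : W →ₗ[ZMod 3] W) := by
    refine ⟨?_, ?_, ?_, fun v _ => xx_sq ht v, fun v _ => nn_xx ht v, ?_, ?_⟩
    · intro v hv
      rw [mem_fixF] at hv ⊢
      refine ⟨U.add_mem (hU 1 _ (hU 2 _ hv.1)) (hU 1 _ (hU 3 _ hv.1)), ?_⟩
      have h3 : t 0 v = v := hv.2
      change t 0 (xx t v) = xx t v
      rw [t0_xx ht, h3]
    · intro v hv
      rw [mem_fixF] at hv ⊢
      refine ⟨hU 2 _ (hU 3 _ hv.1), ?_⟩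
      have h3 : t 0 v = v := hv.2
      change t 0 (nn t v) = nn t v
      rw [t0_nn ht, h3]
    · intro v hv
      rw [mem_fixF] at hv ⊢
      refine ⟨U.neg_mem (hU 2 _ (hU 3 _ hv.1)), ?_⟩
      have h3 : t 0 v = v := hv.2
      change t 0 (-(nn t v)) = -(nn t v)
      rw [map_neg, t0_nn ht, h3]
    · intro v _
      change nn t (-(nn t v)) = v
      rw [map_neg, nn_sq ht, neg_neg]
    · intro v _
      change -(nn t (nn t v)) = v
      rw [nn_sq ht, neg_neg]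
  have h3 := Anti.card (p := 3) (by norm_num) h1
  have h4 := Anti.card (p := 3) (by norm_num) h2
  rw [← h3, ← h4, ← pow_mul]
  rfl

/-- `t 4` in terms of the others -/
theorem t4_eq : (∀ v : W, t 4 v = t 3 (t 2 (t 1 (t 0 v)))) ∨ (∀ v : W, t 4 v = -(t 3 (t 2 (t 1 (t 0 v))))) := by
  rcases ht.prod with h | h
  · left
    intro v
    have h1 : t 0 (t 1 (t 2 (t 3 (t 4 v)))) = v := h v
    have h2 := congrArg (fun w => t 3 (t 2 (t 1 (t 0 w)))) h1
    simpa only [sqt ht] using h2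
  · right
    intro v
    have h1 : t 0 (t 1 (t 2 (t 3 (t 4 v)))) = -v := h v
    have h2 := congrArg (fun w => t 3 (t 2 (t 1 (t 0 w)))) h1
    simpa only [sqt ht, map_neg] using h2

/-- invariance under `t 0, …, t 3` is enough -/
theorem inv_of_four {U : Submodule (ZMod 3) W} (h0 : ∀ v ∈ U, t 0 v ∈ U) (h1 : ∀ v ∈ U, t 1 v ∈ U)
    (h2 : ∀ v ∈ U, t 2 v ∈ U) (h3 : ∀ v ∈ U, t 3 v ∈ U) : ∀ k, ∀ v ∈ U, t k v ∈ U := by
  intro k
  fin_cases k
  · exact h0
  · exact h1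
  · exact h2
  · exact h3
  · intro v hv
    have h5 := h3 _ (h2 _ (h1 _ (h0 _ hv)))
    rcases t4_eq ht with h | h
    · change t 4 v ∈ U
      rw [h]; exact h5
    · change t 4 v ∈ U
      rw [h]; exact U.neg_mem h5

variable {E : Subgroup (W ≃ₗ[ZMod 3] W)} (hE : E = Subgroup.closure (Set.range t))

omit ht in
include hE in
theorem iv_of_t {U : Submodule (ZMod 3) W} (hU : ∀ k, ∀ v ∈ U, t k v ∈ U) [Finite W] : Iv E U := by
  have h1 : ∀ x ∈ Set.range t, ∀ u ∈ U, x u ∈ U := by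
    rintro _ ⟨k, rfl⟩
    exact hU k
  intro x hx
  rw [hE] at hx
  refine Subgroup.closure_induction (p := fun x _ => ∀ u ∈ U, x u ∈ U) h1 (fun u hu => hu) ?_ ?_ hx
  · intro a b _ _ ha hb u hu
    exact ha _ (hb u hu)
  · intro a _ ha u hu
    have h2 : U.map (a : W →ₗ[ZMod 3] W) ≤ U := by
      rintro _ ⟨w, hw, rfl⟩
      exact ha w hw
    have h3 : U.map (a : W →ₗ[ZMod 3] W) = U := by
      refine Submodule.eq_of_le_of_finrank_eq h2 ?_
      exact LinearEquiv.finrank_map_eq a U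
    rw [← h3] at hu
    obtain ⟨w, hw, rfl⟩ := hu
    have h4 : a⁻¹ (a w) = w := a.symm_apply_apply w
    change a⁻¹ (a w) ∈ U
    rw [h4]; exact hw

omit ht in
include hE in
theorem t_mem (k : Fin 5) : t k ∈ E := by
  rw [hE]; exact Subgroup.subset_closure ⟨k, rfl⟩

omit ht in
include hE in
theorem t_of_iv {U : Submodule (ZMod 3) W} (hU : Iv E U) : ∀ k, ∀ v ∈ U, t k v ∈ U :=
  fun k => hU _ (t_mem hE k)

include hE in
/-- a vector of `LL` generates a submodule of order at most `81` -/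
theorem card_cyc_le_of_LL [Finite W] {w : W} (hw0 : t 0 w = w) (hwx : xx t w = w) : Nat.card (cyc E w) ≤ 81 := by
  classical
  set b : Fin 4 → W := ![w, t 2 (t 3 w), t 1 w, t 1 (t 2 (t 3 w))] with hb
  set S := Submodule.span (ZMod 3) (Set.range b) with hS
  have b0 : w ∈ S := Submodule.subset_span ⟨0, rfl⟩
  have b1 : t 2 (t 3 w) ∈ S := Submodule.subset_span ⟨1, rfl⟩
  have b2 : t 1 w ∈ S := Submodule.subset_span ⟨2, rfl⟩
  have b3 : t 1 (t 2 (t 3 w)) ∈ S := Submodule.subset_span ⟨3, rfl⟩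
  rw [xx_apply] at hwx
  -- `t 3 w = t 1 w - t 2 w`
  have e3 : t 3 w = t 1 w + -(t 2 w) := by
    have h := congrArg (t 1) hwx
    rw [map_add, sqt ht, sqt ht] at h
    rw [← h]; abel
  have e2 : t 1 (t 2 w) = -w + -(t 2 (t 3 w)) := by
    have h : t 2 (t 3 w) = -(t 1 (t 2 w)) + -w := by
      rw [e3, map_add, map_neg, sqt ht, r21 ht]
    rw [h]; abel
  have e2' : t 2 w = -(t 1 w) + -(t 1 (t 2 (t 3 w))) := by
    have h := congrArg (t 1) e2
    rw [sqt ht, map_add, map_neg, map_neg] at h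
    exact h
  have e3' : t 3 w = -(t 1 w) + t 1 (t 2 (t 3 w)) := by
    have h1 : t 3 w = (t 1 w + t 1 w) + t 1 (t 2 (t 3 w)) := by
      conv_lhs => rw [e3, e2']
      abel
    rwa [add_self] at h1
  have e13 : t 1 (t 3 w) = -w + t 2 (t 3 w) := by
    have h := congrArg (t 1) e3'
    rw [map_add, map_neg, sqt ht, sqt ht] at h
    exact h
  have m2 : t 2 w ∈ S := by rw [e2']; exact S.add_mem (S.neg_mem b2) (S.neg_mem b3)
  have m3 : t 3 w ∈ S := by rw [e3']; exact S.add_mem (S.neg_mem b2) b3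
  have m12 : t 1 (t 2 w) ∈ S := by rw [e2]; exact S.add_mem (S.neg_mem b0) (S.neg_mem b1)
  have m13 : t 1 (t 3 w) ∈ S := by rw [e13]; exact S.add_mem (S.neg_mem b0) b1
  have key : ∀ k : Fin 5, (t k w ∈ S) → (t k (t 2 (t 3 w)) ∈ S) → (t k (t 1 w) ∈ S) →
      (t k (t 1 (t 2 (t 3 w))) ∈ S) → ∀ v ∈ S, t k v ∈ S := by
    intro k k0 k1 k2 k3 v hv
    have h1 : S.map (t k : W →ₗ[ZMod 3] W) ≤ S := by
      rw [hS, Submodule.map_span_le]
      rintro _ ⟨i, rfl⟩
      fin_cases i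
      · exact k0
      · exact k1
      · exact k2
      · exact k3
    exact h1 ⟨v, hv, rfl⟩
  have inv : ∀ k, ∀ v ∈ S, t k v ∈ S := by
    refine inv_of_four ht (key 0 ?_ ?_ ?_ ?_) (key 1 ?_ ?_ ?_ ?_) (key 2 ?_ ?_ ?_ ?_) (key 3 ?_ ?_ ?_ ?_)
    · rw [hw0]; exact b0
    · have h := t0_nn ht w
      rw [nn_apply, nn_apply, hw0] at h
      rw [h]; exact b1
    · have h := r10 ht w
      rw [hw0] at h
      rw [← neg_neg (t 0 (t 1 w)), ← h]; exact S.neg_mem b2
    · have h := r10 ht (t 2 (t 3 w))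
      have h' := t0_nn ht w
      rw [nn_apply, nn_apply, hw0] at h'
      rw [h'] at h
      rw [← neg_neg (t 0 (t 1 (t 2 (t 3 w)))), ← h]; exact S.neg_mem b3
    · exact b2
    · exact b3
    · rw [sqt ht]; exact b0
    · rw [sqt ht]; exact b1
    · exact m2
    · rw [sqt ht]; exact m3
    · rw [r21 ht]; exact S.neg_mem m12
    · rw [r21 ht, sqt ht]; exact S.neg_mem m13
    · exact m3
    · rw [r32 ht, sqt ht]; exact S.neg_mem m2
    · rw [r31 ht]; exact S.neg_mem m13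
    · rw [r31 ht, r32 ht, sqt ht, map_neg, neg_neg]; exact m12
  have h1 : cyc E w ≤ S := cyc_le (iv_of_t hE inv) b0
  have h2 : Nat.card (cyc E w) ≤ Nat.card S :=
    Nat.card_le_card_of_injective (Submodule.inclusion h1) (Submodule.inclusion_injective _)
  refine h2.trans ?_
  rw [card_eq_pow (p := 3) S]
  have h3 : Module.finrank (ZMod 3) S ≤ 4 := by
    have := finrank_range_le_card (R := ZMod 3) b
    rw [Fintype.card_fin] at this
    exact this
  exact Nat.pow_le_pow_right (by norm_num) h3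

omit ht in
theorem three_le_card [Finite W] {U : Submodule (ZMod 3) W} {v : W} (hv : v ∈ U) (h0 : v ≠ 0) : 3 ≤ Nat.card U := by
  rw [card_eq_pow (p := 3) U]
  have h1 : 0 < Module.finrank (ZMod 3) U := by
    have : Nontrivial U := ⟨⟨⟨v, hv⟩, 0, fun h => h0 (congrArg Subtype.val h)⟩⟩
    exact Module.finrank_pos
  calc 3 = 3 ^ 1 := by norm_num
    _ ≤ 3 ^ Module.finrank (ZMod 3) U := Nat.pow_le_pow_right (by norm_num) h1

include hE in
theorem card_cyc_ge [Finite W] {u : W} (hu : u ≠ 0) : 81 ≤ Nat.card (cyc E u) := by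
  have h1 := card_four ht (t_of_iv hE (iv_cyc E u))
  have h2 := three_le_card (mem_cyc E u) hu
  have h3 : 1 < Nat.card (LL t (cyc E u)) := by
    by_contra h
    have h4 : Nat.card (LL t (cyc E u)) ≤ 1 := by omega
    have h5 : Nat.card (cyc E u) ≤ 1 := by
      rw [h1]
      calc Nat.card (LL t (cyc E u)) ^ 4 ≤ 1 ^ 4 := Nat.pow_le_pow_left h4 4
        _ = 1 := by norm_num
    omega
  have h4 : 3 ≤ Nat.card (LL t (cyc E u)) := by
    have h5 := card_eq_pow (p := 3) (LL t (cyc E u))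
    rw [h5] at h3 ⊢
    have h6 : Module.finrank (ZMod 3) (LL t (cyc E u)) ≠ 0 := by
      intro h; rw [h] at h3; norm_num at h3
    calc 3 = 3 ^ 1 := by norm_num
      _ ≤ _ := Nat.pow_le_pow_right (by norm_num) (Nat.one_le_iff_ne_zero.2 h6)
  rw [h1]
  calc 81 = 3 ^ 4 := by norm_num
    _ ≤ _ := Nat.pow_le_pow_left h4 4

include hE in
theorem cyc_eq [Finite W] {u v : W} (hu : u ≠ 0) (huv : u ∈ cyc E v) (hv : Nat.card (cyc E v) = 81) :
    cyc E u = cyc E v := by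
  refine Submodule.eq_of_le_of_finrank_le (cyc_le (iv_cyc E v) huv) ?_
  have h1 := card_cyc_ge ht hE hu
  rw [← hv, card_eq_pow (p := 3), card_eq_pow (p := 3)] at h1
  exact (Nat.pow_le_pow_iff_right (by norm_num)).1 h1

include hE in
theorem card_cyc_of_LL [Finite W] {w : W} (hw : w ∈ LL t ⊤) (h0 : w ≠ 0) : Nat.card (cyc E w) = 81 := by
  rw [mem_LL] at hw
  exact le_antisymm (card_cyc_le_of_LL ht hE hw.2.1 hw.2.2) (card_cyc_ge ht hE h0)

include hE in
theorem card_LL_cyc [Finite W] {v : W} (hv : Nat.card (cyc E v) = 81) : Nat.card (LL t (cyc E v)) = 3 := by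
  have h1 := card_four ht (t_of_iv hE (iv_cyc E v))
  rw [hv] at h1
  have h2 : Nat.card (LL t (cyc E v)) ^ 4 = 3 ^ 4 := by rw [← h1]; norm_num
  exact Nat.pow_left_injective (by norm_num : 4 ≠ 0) h2

omit ht in
theorem card_filter_sub [Fintype W] (U : Submodule (ZMod 3) W) [DecidablePred fun v : W => v ≠ 0 ∧ v ∈ U] :
    (Finset.univ.filter (fun v : W => v ≠ 0 ∧ v ∈ U)).card = Nat.card U - 1 := by
  classical
  have h1 : Nat.card U = (Finset.univ.filter (fun v : W => v ∈ U)).card := by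
    rw [Nat.card_eq_fintype_card, Fintype.card_subtype]
  have h2 : Finset.univ.filter (fun v : W => v ≠ 0 ∧ v ∈ U) = (Finset.univ.filter (fun v : W => v ∈ U)).erase 0 := by
    ext v
    simp
  rw [h2, Finset.card_erase_of_mem (by simp), h1]

include hE in
/-- **the number of vectors generating a submodule of order `81`** -/
theorem card_small [Finite W] :
    Nat.card {v : W | v ≠ 0 ∧ Nat.card (cyc E v) = 81} * 2 = (Nat.card (LL t ⊤) - 1) * 80 := by
  classical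
  have _ : Fintype W := Fintype.ofFinite W
  set s : Finset W := Finset.univ.filter (fun w => w ≠ 0 ∧ w ∈ LL t ⊤) with hs
  set s' : Finset W := Finset.univ.filter (fun v => v ≠ 0 ∧ Nat.card (cyc E v) = 81) with hs'
  have key := Finset.card_mul_eq_card_mul (s := s) (t := s') (fun w v : W => v ∈ cyc E w) (m := 80) (n := 2) ?_ ?_
  · have h1 : Nat.card {v : W | v ≠ 0 ∧ Nat.card (cyc E v) = 81} = s'.card := by
      rw [hs', Nat.card_eq_fintype_card, Fintype.card_subtype]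
      rfl
    have h2 : s.card = Nat.card (LL t ⊤) - 1 := by rw [hs, card_filter_sub]
    rw [h1, ← h2, key]
  · intro w hw
    rw [hs, Finset.mem_filter] at hw
    have hc := card_cyc_of_LL ht hE hw.2.2 hw.2.1
    have h1 : Finset.bipartiteAbove (fun w v : W => v ∈ cyc E w) s' w =
        Finset.univ.filter (fun v => v ≠ 0 ∧ v ∈ cyc E w) := by
      ext v
      simp only [Finset.bipartiteAbove, Finset.mem_filter, hs', Finset.mem_univ, true_and]
      constructor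
      · rintro ⟨⟨h0, -⟩, h⟩
        exact ⟨h0, h⟩
      · rintro ⟨h0, h⟩
        exact ⟨⟨h0, by rw [cyc_eq ht hE h0 h hc, hc]⟩, h⟩
    rw [h1, card_filter_sub, hc]
  · intro v hv
    rw [hs', Finset.mem_filter] at hv
    have h1 : Finset.bipartiteBelow (fun w v : W => v ∈ cyc E w) s v =
        Finset.univ.filter (fun w => w ≠ 0 ∧ w ∈ LL t (cyc E v)) := by
      ext w
      simp only [Finset.bipartiteBelow, Finset.mem_filter, hs, Finset.mem_univ, true_and]
      constructor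
      · rintro ⟨⟨h0, hw⟩, h⟩
        have h2 := cyc_eq ht hE hv.2.1 h (card_cyc_of_LL ht hE hw h0)
        refine ⟨h0, mem_LL.2 ⟨?_, (mem_LL.1 hw).2⟩⟩
        rw [h2]; exact mem_cyc E w
      · rintro ⟨h0, hw⟩
        rw [mem_LL] at hw
        refine ⟨⟨h0, mem_LL.2 ⟨trivial, hw.2⟩⟩, ?_⟩
        rw [cyc_eq ht hE h0 hw.1 hv.2.2]
        exact mem_cyc E v
    rw [h1, card_filter_sub, card_LL_cyc ht hE hv.2.2]

end frame

end Cfsg.Agent.H789.HT
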