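import Cfsg.Agent.H789.HT.PCount
import Cfsg.Agent.H662.HT.Glue

/-!
# S3577 (TEAM HT-E), P5, second part: the normaliser of a frame over `GF(3)` in dimension 8 (helper789)
-/

set_option autoImplicit false
set_option linter.unusedSectionVars false

namespace Cfsg.Agent.H789.HT

open Cfsg.Agent.H828.HT Cfsg.Agent.H662.HT Cfsg.Agent.H528.HT

universe u

section perm

/-- an involution on five points fixes a point -/
theorem inv_fix : ∀ s : Equiv.Perm (Fin 5), s * s = 1 → ∃ x, s x = x := by decide +kernel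

/-- an involution with at most one fixed point moves two pairs -/
theorem inv_two : ∀ s : Equiv.Perm (Fin 5), s * s = 1 → (∀ x y, s x = x → s y = y → x = y) →
    ∃ a c, s a ≠ a ∧ s c ≠ c ∧ c ≠ a ∧ c ≠ s a := by decide +kernel

/-- an element of order 5 is transitive -/
theorem five_trans : ∀ c : Equiv.Perm (Fin 5), c ^ 5 = 1 → c ≠ 1 → ∀ x y, ∃ i : Fin 5, (c ^ (i : ℕ)) x = y := by
  decide +kernel

theorem pow_conj {s c : Equiv.Perm (Fin 5)} (h : s * c * s⁻¹ = c⁻¹) (i : ℕ) (x : Fin 5) :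
    s ((c ^ i) x) = (c ^ i)⁻¹ (s x) := by
  have h1 : s * c ^ i * s⁻¹ = (c ^ i)⁻¹ := by
    rw [← conj_pow, h, inv_pow]
  have h2 : s * c ^ i = (c ^ i)⁻¹ * s := by rw [← h1]; group
  exact congrArg (fun f : Equiv.Perm (Fin 5) => f x) h2

/-- a subgroup of `S_5` of order `5 h`, `h` a power of two: the involutions -/
theorem five_group {R : Subgroup (Equiv.Perm (Fin 5))} {h : ℕ} (hR : Nat.card R = 5 * h)
    (hh : h = 2 ∨ h = 4 ∨ h = 8) :
    Nat.card {s : Equiv.Perm (Fin 5) | s ∈ R ∧ s * s = 1 ∧ s ≠ 1} ≤ 5 ∧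
    ∀ s ∈ R, s * s = 1 → s ≠ 1 → ∃ a c, s a ≠ a ∧ s c ≠ c ∧ c ≠ a ∧ c ≠ s a := by
  classical
  have _ : Fact (Nat.Prime 5) := ⟨by norm_num⟩
  obtain ⟨c', hc'⟩ := exists_prime_orderOf_dvd_card' (G := R) 5 ⟨h, hR⟩
  set c : Equiv.Perm (Fin 5) := (c' : Equiv.Perm (Fin 5)) with hc
  have hc5 : c ^ 5 = 1 := by
    have := pow_orderOf_eq_one c'
    rw [hc'] at this
    have h1 := congrArg Subtype.val this
    simpa using h1
  have hc1 : c ≠ 1 := by
    intro h1
    have h2 : c' = 1 := Subtype.ext h1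
    rw [h2, orderOf_one] at hc'
    norm_num at hc'
  have hordc : orderOf c = 5 := by rw [hc, Subgroup.orderOf_coe, hc']
  -- the Sylow subgroup
  have hfac : (Nat.card R).factorization 5 = 1 := by
    rw [hR]
    rcases hh with h1 | h1 | h1 <;> subst h1 <;>
      rw [Nat.factorization_mul (by norm_num) (by norm_num)] <;>
      simp [Nat.factorization_eq_zero_of_not_dvd, Nat.Prime.factorization_self (by norm_num : Nat.Prime 5)]
  have hcz : Nat.card (Subgroup.zpowers c') = 5 ^ (Nat.card R).factorization 5 := by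
    rw [hfac, Nat.card_zpowers, hc']; norm_num
  set P : Sylow 5 R := Sylow.ofCard (Subgroup.zpowers c') hcz with hP
  have hind : (P : Subgroup R).index = h := by
    have h1 := Subgroup.card_mul_index (P : Subgroup R)
    have h2 : Nat.card (P : Subgroup R) = 5 := by
      rw [hP, Sylow.coe_ofCard, Nat.card_zpowers, hc']
    rw [h2, hR] at h1
    omega
  have hn1 := card_sylow_modEq_one 5 R
  have hn2 : Nat.card (Sylow 5 R) ∣ h := hind ▸ P.card_dvd_index
  have hn : Nat.card (Sylow 5 R) = 1 := by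
    have h8 : h ≤ 8 := by omega
    have h0 : 0 < h := by omega
    have h3 := Nat.le_of_dvd h0 hn2
    unfold Nat.ModEq at hn1
    generalize Nat.card (Sylow 5 R) = n at *
    rcases hh with h1 | h1 | h1 <;> subst h1 <;> interval_cases n <;> omega
  have hsub : Subsingleton (Sylow 5 R) := (Nat.card_eq_one_iff_unique.1 hn).1
  have hnorm : (P : Subgroup R).Normal := Sylow.normal_of_subsingleton P
  have hmem : ∀ s ∈ R, s * c * s⁻¹ ∈ Subgroup.zpowers c := by
    intro s hs
    have h1 : (⟨s, hs⟩ : R) * c' * (⟨s, hs⟩ : R)⁻¹ ∈ (P : Subgroup R) :=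
      hnorm.conj_mem c' (by rw [hP, Sylow.coe_ofCard]; exact Subgroup.mem_zpowers c') _
    rw [hP, Sylow.coe_ofCard] at h1
    obtain ⟨k, hk⟩ := h1
    refine ⟨k, ?_⟩
    have h2 := congrArg Subtype.val hk
    simpa using h2
  -- the involutions invert `c`
  have hinv : ∀ s ∈ R, s * s = 1 → s ≠ 1 → s * c * s⁻¹ = c⁻¹ := by
    intro s hs hss hs1
    obtain ⟨k, hk⟩ := hmem s hs
    have hk' : s * c * s⁻¹ = c ^ k := hk.symm
    have h1 : c ^ (k * k) = c := by
      have h2 : s * (s * c * s⁻¹) * s⁻¹ = c := by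
        have h3 : s⁻¹ = s := inv_eq_of_mul_eq_one_left hss
        rw [h3]
        calc s * (s * c * s) * s = (s * s) * c * (s * s) := by group
          _ = c := by rw [hss]; group
      rw [hk', ← conj_zpow, hk', ← zpow_mul] at h2
      exact h2
    have h3 : (5 : ℤ) ∣ k * k - 1 := by
      have h4 : c ^ (k * k - 1) = 1 := by rw [zpow_sub, zpow_one, h1, mul_inv_cancel]
      have h5 := orderOf_dvd_iff_zpow_eq_one.2 h4
      rw [hordc] at h5
      exact_mod_cast h5
    have h4 : (5 : ℤ) ∣ (k - 1) * (k + 1) := by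
      have : (k - 1) * (k + 1) = k * k - 1 := by ring
      rw [this]; exact h3
    have h5 : Prime (5 : ℤ) := by norm_num
    rcases h5.dvd_or_dvd h4 with h6 | h6
    · exfalso
      have h7 : c ^ k = c := by
        have h8 : c ^ (k - 1) = 1 := orderOf_dvd_iff_zpow_eq_one.1 (by rw [hordc]; exact_mod_cast h6)
        rw [zpow_sub, zpow_one] at h8
        exact mul_inv_eq_one.1 h8
      rw [h7] at hk'
      obtain ⟨x, hx⟩ := inv_fix s hss
      apply hs1
      ext1 y
      obtain ⟨i, hi⟩ := five_trans c hc5 hc1 x y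
      have h8 : s * c ^ (i : ℕ) = c ^ (i : ℕ) * s := by
        have h9 : s * c ^ (i : ℕ) * s⁻¹ = c ^ (i : ℕ) := by rw [← conj_pow, hk']
        calc s * c ^ (i : ℕ) = (s * c ^ (i : ℕ) * s⁻¹) * s := by group
          _ = _ := by rw [h9]
      have h9 : s ((c ^ (i : ℕ)) x) = (c ^ (i : ℕ)) (s x) := congrArg (fun f : Equiv.Perm (Fin 5) => f x) h8
      rw [hi, hx, hi] at h9
      rw [h9]; rfl
    · rw [hk']
      have h8 : c ^ (k + 1) = 1 := orderOf_dvd_iff_zpow_eq_one.1 (by rw [hordc]; exact_mod_cast h6)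
      rw [zpow_add, zpow_one] at h8
      exact eq_inv_of_mul_eq_one_left h8
  refine ⟨?_, ?_⟩
  · have h1 : Nat.card {s : Equiv.Perm (Fin 5) | s ∈ R ∧ s * s = 1 ∧ s ≠ 1} ≤ Nat.card (Fin 5) := by
      refine Nat.card_le_card_of_injective (fun s => (s : Equiv.Perm (Fin 5)) 0) ?_
      rintro ⟨s, hs, hss, hs1⟩ ⟨s', hs', hss', hs1'⟩ he
      apply Subtype.ext
      change s = s'
      ext1 y
      obtain ⟨i, hi⟩ := five_trans c hc5 hc1 0 y
      rw [← hi, pow_conj (hinv s hs hss hs1), pow_conj (hinv s' hs' hss' hs1')]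
      exact congrArg _ he
    simpa using h1
  · intro s hs hss hs1
    refine inv_two s hss ?_
    intro x y hx hy
    obtain ⟨i, hi⟩ := five_trans c hc5 hc1 x y
    have h1 := pow_conj (hinv s hs hss hs1) i x
    rw [hi, hx, hy] at h1
    have h2 : (c ^ (i : ℕ)) y = x := by
      rw [h1]
      exact Equiv.apply_symm_apply (c ^ (i : ℕ)) x
    have h3 : (c ^ (2 * (i : ℕ))) x = x := by
      rw [two_mul, pow_add, Equiv.Perm.mul_apply, hi, h2]
    have h4 : (i : ℕ) = 0 := by
      by_contra h0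
      have hi5 := i.2
      -- `c ^ (2 i)` generates `zpowers c`
      have h5 : ∀ n : ℕ, (c ^ (2 * (i : ℕ) * n)) x = x := by
        intro n
        induction n with
        | zero => simp
        | succ n ih => rw [mul_add, mul_one, pow_add, Equiv.Perm.mul_apply, h3, ih]
      have h6 : ∃ n : ℕ, (2 * (i : ℕ) * n) % 5 = 1 := by
        have : ∀ j : Fin 5, (j : ℕ) ≠ 0 → ∃ n : Fin 5, (2 * (j : ℕ) * (n : ℕ)) % 5 = 1 := by decide
        obtain ⟨n, hn⟩ := this i h0
        exact ⟨n, hn⟩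
      obtain ⟨n, hn⟩ := h6
      have h7 : c ^ (2 * (i : ℕ) * n) = c := by
        rw [← Nat.div_add_mod (2 * (i : ℕ) * n) 5, hn, pow_add, pow_mul, hc5, one_pow, one_mul, pow_one]
      have h8 := h5 n
      rw [h7] at h8
      apply hc1
      ext1 z
      obtain ⟨j, hj⟩ := five_trans c hc5 hc1 x z
      have h9 : ∀ n : ℕ, (c ^ n) x = x := by
        intro n
        induction n with
        | zero => rfl
        | succ n ih => rw [pow_succ, Equiv.Perm.mul_apply, h8, ih]
      rw [← hj, h9, h8]; rfl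
    rw [h4, pow_zero] at hi
    exact hi

end perm

section rel

variable [Fact (Nat.Prime 3)] {W : Type u} [AddCommGroup W] [Module (ZMod 3) W] [Nontrivial W]

omit [Nontrivial W] in
theorem zero_of_neg {v : W} (h : v = -v) : v = 0 := by
  have h1 : v + v = 0 := by
    nth_rewrite 2 [h]
    rw [add_neg_cancel]
  rw [add_self] at h1
  exact neg_eq_zero.1 h1

/-- `g t_k g⁻¹ = ± t_j` -/
def rel (t : Fin 5 → (W ≃ₗ[ZMod 3] W)) (g : W ≃ₗ[ZMod 3] W) (k j : Fin 5) : Prop :=
  (∀ v : W, g (t k v) = t j (g v)) ∨ (∀ v : W, g (t k v) = -(t j (g v)))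

variable {t : Fin 5 → (W ≃ₗ[ZMod 3] W)} (ht : Frame5 t)

include ht in
theorem eq_of_pm {j j' : Fin 5} (h : (∀ v : W, t j v = t j' v) ∨ (∀ v : W, t j v = -(t j' v))) : j = j' := by
  by_contra hne
  obtain ⟨v, hv⟩ := exists_ne (0 : W)
  apply hv
  apply zero_of_neg
  rcases h with h | h
  · have h1 := antit ht hne v
    rw [h, sqt ht, h, sqt ht] at h1
    exact h1
  · have h1 := antit ht hne v
    rw [h, h, map_neg, neg_neg, sqt ht] at h1
    exact (neg_eq_iff_eq_neg.1 h1)

include ht in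
theorem rel_unique {g : W ≃ₗ[ZMod 3] W} {k j j' : Fin 5} (h : rel t g k j) (h' : rel t g k j') : j = j' := by
  apply eq_of_pm ht
  rcases h with h | h <;> rcases h' with h' | h'
  · left
    intro v
    have h1 := h (g⁻¹ v)
    rw [h' (g⁻¹ v)] at h1
    have h2 : g (g⁻¹ v) = v := g.apply_symm_apply v
    rw [h2] at h1
    exact h1.symm
  · right
    intro v
    have h1 := h (g⁻¹ v)
    rw [h' (g⁻¹ v)] at h1
    have h2 : g (g⁻¹ v) = v := g.apply_symm_apply v
    rw [h2] at h1
    exact h1.symm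
  · right
    intro v
    have h1 := h (g⁻¹ v)
    rw [h' (g⁻¹ v)] at h1
    have h2 : g (g⁻¹ v) = v := g.apply_symm_apply v
    rw [h2] at h1
    rw [h1, neg_neg]
  · left
    intro v
    have h1 := h (g⁻¹ v)
    rw [h' (g⁻¹ v)] at h1
    have h2 : g (g⁻¹ v) = v := g.apply_symm_apply v
    rw [h2] at h1
    exact (neg_injective h1).symm

omit [Nontrivial W] in
theorem rel_one (k : Fin 5) : rel t 1 k k := Or.inl fun _ => rfl

omit [Nontrivial W] in
theorem rel_mul {g g' : W ≃ₗ[ZMod 3] W} {k j i : Fin 5} (h' : rel t g' k j) (h : rel t g j i) :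
    rel t (g * g') k i := by
  rcases h with h | h <;> rcases h' with h' | h'
  · left
    intro v
    change g (g' (t k v)) = t i (g (g' v))
    rw [h', h]
  · right
    intro v
    change g (g' (t k v)) = -(t i (g (g' v)))
    rw [h', map_neg, h]
  · right
    intro v
    change g (g' (t k v)) = -(t i (g (g' v)))
    rw [h', h]
  · left
    intro v
    change g (g' (t k v)) = t i (g (g' v))
    rw [h', map_neg, h, neg_neg]

include ht in
/-- the permutation of the five pairs `± t_k` -/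
theorem exists_phi {G : Subgroup (W ≃ₗ[ZMod 3] W)} (hex : ∀ g ∈ G, ∀ k, ∃ j, rel t g k j) :
    ∃ φ : G →* Equiv.Perm (Fin 5), ∀ (g : G) (k : Fin 5), rel t g k (φ g k) := by
  classical
  let act : MulAction G (Fin 5) :=
    { smul := fun g k => Classical.choose (hex g g.2 k)
      one_smul := fun k => rel_unique ht (Classical.choose_spec (hex (1 : G) (1 : G).2 k)) (rel_one k)
      mul_smul := fun g g' k => rel_unique ht (Classical.choose_spec (hex (g * g' : G) (g * g').2 k))
        (rel_mul (Classical.choose_spec (hex g' g'.2 k))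
          (Classical.choose_spec (hex g g.2 (Classical.choose (hex g' g'.2 k))))) }
  exact ⟨MulAction.toPermHom G (Fin 5), fun g k => Classical.choose_spec (hex g g.2 k)⟩

/-- `g` commutes with `t_k` -/
def Pc (t : Fin 5 → (W ≃ₗ[ZMod 3] W)) (g : W ≃ₗ[ZMod 3] W) (k : Fin 5) : Prop := ∀ v : W, g (t k v) = t k (g v)

omit [Nontrivial W] in
include ht in
theorem fix_step {g : W ≃ₗ[ZMod 3] W} {i j : Fin 5} (hij : i ≠ j) (hg : ∀ k, rel t g k k) :
    ∃ n : W ≃ₗ[ZMod 3] W, (n = 1 ∨ n = t i * t j) ∧ (∀ k, rel t (g * n) k k) ∧ Pc t (g * n) i ∧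
      ∀ k, k ≠ i → k ≠ j → Pc t g k → Pc t (g * n) k := by
  rcases hg i with h | h
  · exact ⟨1, Or.inl rfl, by simpa using hg, by rw [mul_one]; exact h, fun k _ _ hk => by rw [mul_one]; exact hk⟩
  · have hr : ∀ k, rel t (t i * t j) k k := by
      intro k
      by_cases hki : k = i
      · right
        intro v
        change t i (t j (t k v)) = -(t k (t i (t j v)))
        rw [hki, antit ht hij.symm, map_neg]
      · by_cases hkj : k = j
        · right
          intro v
          change t i (t j (t k v)) = -(t k (t i (t j v)))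
          rw [hkj, sqt ht, antit ht hij.symm (t j v), sqt ht, neg_neg]
        · left
          intro v
          change t i (t j (t k v)) = t k (t i (t j v))
          rw [antit ht (Ne.symm hkj), map_neg, antit ht (Ne.symm hki), neg_neg]
    refine ⟨t i * t j, Or.inr rfl, fun k => rel_mul (hr k) (hg k), ?_, ?_⟩
    · intro v
      change g (t i (t j (t i v))) = t i (g (t i (t j v)))
      rw [antit ht hij.symm, map_neg, map_neg, h, neg_neg]
    · intro k hki hkj hk v
      change g (t i (t j (t k v))) = t k (g (t i (t j v)))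
      rw [antit ht (Ne.symm hkj), map_neg, antit ht (Ne.symm hki), neg_neg, hk]

omit [Nontrivial W] in
include ht in
theorem exists_fix {E : Subgroup (W ≃ₗ[ZMod 3] W)} (hE : ∀ k, t k ∈ E) {g : W ≃ₗ[ZMod 3] W}
    (hg : ∀ k, rel t g k k) : ∃ n ∈ E, ∀ k, Pc t (g * n) k := by
  have hmem : ∀ {i j : Fin 5} {n : W ≃ₗ[ZMod 3] W}, (n = 1 ∨ n = t i * t j) → n ∈ E := by
    rintro i j n (rfl | rfl)
    · exact E.one_mem
    · exact E.mul_mem (hE i) (hE j)
  obtain ⟨n0, m0, g0, a0, -⟩ := fix_step ht (i := 0) (j := 1) (by decide) hg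
  obtain ⟨n1, m1, g1, a1, b1⟩ := fix_step ht (i := 1) (j := 2) (by decide) g0
  obtain ⟨n2, m2, g2, a2, b2⟩ := fix_step ht (i := 2) (j := 3) (by decide) g1
  obtain ⟨n3, m3, g3, a3, b3⟩ := fix_step ht (i := 3) (j := 4) (by decide) g2
  refine ⟨n0 * n1 * n2 * n3, E.mul_mem (E.mul_mem (E.mul_mem (hmem m0) (hmem m1)) (hmem m2)) (hmem m3), ?_⟩
  have e : g * (n0 * n1 * n2 * n3) = g * n0 * n1 * n2 * n3 := by group
  rw [e]
  have p3 := a3
  have p2 := b3 2 (by decide) (by decide) a2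
  have p1 := b3 1 (by decide) (by decide) (b2 1 (by decide) (by decide) a1)
  have p0 := b3 0 (by decide) (by decide) (b2 0 (by decide) (by decide) (b1 0 (by decide) (by decide) a0))
  intro k
  fin_cases k
  · exact p0
  · exact p1
  · exact p2
  · exact p3
  · intro v
    rcases t4_eq ht with h | h
    · change (g * n0 * n1 * n2 * n3) (t 4 v) = t 4 ((g * n0 * n1 * n2 * n3) v)
      rw [h, h, p3, p2, p1, p0]
    · change (g * n0 * n1 * n2 * n3) (t 4 v) = t 4 ((g * n0 * n1 * n2 * n3) v)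
      rw [h, h, map_neg, p3, p2, p1, p0]

omit [Nontrivial W] in
theorem comm_of_Pc {E : Subgroup (W ≃ₗ[ZMod 3] W)} (hE : E = Subgroup.closure (Set.range t)) {x : W ≃ₗ[ZMod 3] W}
    (hx : ∀ k, Pc t x k) : ∀ y ∈ E, x * y = y * x := by
  intro y hy
  rw [hE] at hy
  have h1 : y ∈ Subgroup.centralizer {x} := by
    refine (Subgroup.closure_le (K := Subgroup.centralizer {x})).2 ?_ hy
    rintro _ ⟨k, rfl⟩
    rw [SetLike.mem_coe, Subgroup.mem_centralizer_iff]
    intro z hz
    rw [Set.mem_singleton_iff] at hz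
    rw [hz]
    ext v
    exact hx k v
  rw [Subgroup.mem_centralizer_iff] at h1
  exact h1 x rfl

include ht in
/-- the kernel of the permutation action is contained in `E` -/
theorem mem_of_rel {E G : Subgroup (W ≃ₗ[ZMod 3] W)} (hE : E = Subgroup.closure (Set.range t)) (hEG : E ≤ G)
    (hcen : ∀ g ∈ G, (∀ x ∈ E, g * x = x * g) → g ∈ E) {g : W ≃ₗ[ZMod 3] W} (hg : g ∈ G)
    (hr : ∀ k, rel t g k k) : g ∈ E := by
  obtain ⟨n, hn, h1⟩ := exists_fix ht (fun k => t_mem hE k) hr
  have h2 := hcen (g * n) (G.mul_mem hg (hEG hn)) (comm_of_Pc hE h1)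
  have h3 := E.mul_mem h2 (E.inv_mem hn)
  rwa [mul_inv_cancel_right] at h3

/-- the elements of `E` commuting with `y` up to sign -/
def BB (E : Subgroup (W ≃ₗ[ZMod 3] W)) (y : W ≃ₗ[ZMod 3] W) : Subgroup (W ≃ₗ[ZMod 3] W) where
  carrier := {n | n ∈ E ∧ ((∀ v, y (n v) = n (y v)) ∨ (∀ v, y (n v) = -(n (y v))))}
  one_mem' := ⟨E.one_mem, Or.inl fun _ => rfl⟩
  mul_mem' := by
    rintro a b ⟨ha, ha'⟩ ⟨hb, hb'⟩
    refine ⟨E.mul_mem ha hb, ?_⟩
    rcases ha' with ha' | ha' <;> rcases hb' with hb' | hb'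
    · left
      intro v
      change y (a (b v)) = a (b (y v))
      rw [ha', hb']
    · right
      intro v
      change y (a (b v)) = -(a (b (y v)))
      rw [ha', hb', map_neg]
    · right
      intro v
      change y (a (b v)) = -(a (b (y v)))
      rw [ha', hb']
    · left
      intro v
      change y (a (b v)) = a (b (y v))
      rw [ha', hb', map_neg, neg_neg]
  inv_mem' := by
    rintro a ⟨ha, ha'⟩
    refine ⟨E.inv_mem ha, ?_⟩
    have e : ∀ v, a (a⁻¹ v) = v := fun v => a.apply_symm_apply v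
    have e' : ∀ v, a⁻¹ (a v) = v := fun v => a.symm_apply_apply v
    rcases ha' with ha' | ha'
    · left
      intro v
      have h1 := ha' (a⁻¹ v)
      rw [e] at h1
      rw [h1, e']
    · right
      intro v
      have h1 := ha' (a⁻¹ v)
      rw [e] at h1
      rw [h1, map_neg, e', neg_neg]

include ht in
/-- over a double transposition at most eight -/
theorem card_BB [Finite W] {E : Subgroup (W ≃ₗ[ZMod 3] W)} (hE : ∀ k, t k ∈ E) (h32 : Nat.card E = 32)
    {y : W ≃ₗ[ZMod 3] W} {s : Fin 5 → Fin 5} (hs : ∀ k, rel t y k (s k)) (hss : ∀ k, s (s k) = k) {a c : Fin 5}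
    (ha : s a ≠ a) (hc : s c ≠ c) (hca : c ≠ a) (hcs : c ≠ s a) : Nat.card (BB E y) ≤ 8 := by
  have hle : BB E y ≤ E := fun x hx => hx.1
  set K := (BB E y).subgroupOf E with hK
  have hcardK : Nat.card K = Nat.card (BB E y) := Nat.card_congr (Subgroup.subgroupOfEquivOfLe hle).toEquiv
  have hidx : Nat.card K * K.index = 32 := by rw [Subgroup.card_mul_index, h32]
  have na : t a ∉ BB E y := by
    intro h
    exact ha (rel_unique ht (hs a) h.2)
  have nc : t c ∉ BB E y := by
    intro h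
    exact hc (rel_unique ht (hs c) h.2)
  have hab : a ≠ s a := Ne.symm ha
  have had : a ≠ s c := by
    intro h
    apply hcs
    rw [h, hss]
  have nac : t a * t c ∉ BB E y := by
    intro h
    obtain ⟨w, hw⟩ := exists_ne (0 : W)
    -- `t a t c = ± t b t d`
    have key : (∀ w : W, t a (t c w) = t (s a) (t (s c) w)) ∨ (∀ w : W, t a (t c w) = -(t (s a) (t (s c) w))) := by
      have e : ∀ v, y (y⁻¹ v) = v := fun v => y.apply_symm_apply v
      have h1 : (∀ v : W, y (t a (t c v)) = t (s a) (t (s c) (y v))) ∨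
          (∀ v : W, y (t a (t c v)) = -(t (s a) (t (s c) (y v)))) := by
        rcases hs a with h1 | h1 <;> rcases hs c with h2 | h2
        · left; intro v; rw [h1, h2]
        · right; intro v; rw [h1, h2, map_neg]
        · right; intro v; rw [h1, h2]
        · left; intro v; rw [h1, h2, map_neg, neg_neg]
      rcases h.2 with h2 | h2 <;> rcases h1 with h1 | h1
      · left
        intro w
        have h3 := h1 (y⁻¹ w)
        have h4 : y (t a (t c (y⁻¹ w))) = t a (t c (y (y⁻¹ w))) := h2 (y⁻¹ w)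
        rw [h4, e] at h3
        exact h3
      · right
        intro w
        have h3 := h1 (y⁻¹ w)
        have h4 : y (t a (t c (y⁻¹ w))) = t a (t c (y (y⁻¹ w))) := h2 (y⁻¹ w)
        rw [h4, e] at h3
        exact h3
      · right
        intro w
        have h3 := h1 (y⁻¹ w)
        have h4 : y (t a (t c (y⁻¹ w))) = -(t a (t c (y (y⁻¹ w)))) := h2 (y⁻¹ w)
        rw [h4, e] at h3
        rw [← h3, neg_neg]
      · left
        intro w
        have h3 := h1 (y⁻¹ w)
        have h4 : y (t a (t c (y⁻¹ w))) = -(t a (t c (y (y⁻¹ w)))) := h2 (y⁻¹ w)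
        rw [h4, e] at h3
        exact neg_injective h3
    have h5 : t a (t c (t a w)) = -(t a (t a (t c w))) := by
      rw [antit ht hca, map_neg]
    have h6 : t (s a) (t (s c) (t a w)) = t a (t (s a) (t (s c) w)) := by
      rw [antit ht (Ne.symm had), map_neg, antit ht (Ne.symm hab), neg_neg]
    have h7 : t a (t a (t c w)) = -(t a (t a (t c w))) := by
      rcases key with h8 | h8
      · have h9 := h8 (t a w)
        rw [h5, h6, ← h8 w] at h9
        exact h9.symm
      · have h9 := h8 (t a w)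
        rw [h5, h6] at h9
        have h10 : t (s a) (t (s c) w) = -(t a (t c w)) := by rw [h8 w, neg_neg]
        rw [h10, map_neg, neg_neg] at h9
        exact h9.symm
    have h8 := zero_of_neg h7
    rw [sqt ht] at h8
    have h9 : w = 0 := by
      rw [← sqt ht c w, h8, map_zero]
    exact hw h9
  have h1 : K.index ≠ 1 := by
    intro h
    rw [Subgroup.index_eq_one] at h
    have h2 : (⟨t a, hE a⟩ : E) ∈ K := by rw [h]; trivial
    exact na h2
  have h2 : K.index ≠ 2 := by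
    intro h
    have h3 := (Subgroup.mul_mem_iff_of_index_two h (a := (⟨t a, hE a⟩ : E)) (b := (⟨t c, hE c⟩ : E)))
    have h4 : ((⟨t a, hE a⟩ : E) * ⟨t c, hE c⟩ ∈ K) := by
      rw [h3]
      exact ⟨fun h5 => absurd h5 na, fun h5 => absurd h5 nc⟩
    exact nac h4
  have h3 : K.index ≠ 3 := by
    intro h
    rw [h] at hidx
    omega
  have h4 : K.index ≠ 0 := by
    intro h
    rw [h] at hidx
    omega
  rw [← hcardK]
  have h5 : 4 ≤ K.index := by omega
  nlinarith

end rel

section count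

variable [Fact (Nat.Prime 3)] {W : Type u} [AddCommGroup W] [Module (ZMod 3) W] [Nontrivial W] [Finite W]
  {t : Fin 5 → (W ≃ₗ[ZMod 3] W)} (ht : Frame5 t)

/-- the involutions over a permutation -/
theorem card_fibre {E G : Subgroup (W ≃ₗ[ZMod 3] W)} (hEG : E ≤ G)
    (hsq : ∀ x ∈ E, (∀ v, x (x v) = v) ∨ (∀ v : W, x (x v) = -v)) {φ : G →* Equiv.Perm (Fin 5)}
    (hker : ∀ g : G, φ g = 1 → (g : W ≃ₗ[ZMod 3] W) ∈ E) {y₀ : G} (hy₀ : y₀ * y₀ = 1)
    (h8 : Nat.card (BB E (y₀ : W ≃ₗ[ZMod 3] W)) ≤ 8) :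
    Nat.card {y : G | y * y = 1 ∧ φ y = φ y₀} ≤ 8 := by
  refine le_trans ?_ h8
  have key : ∀ y : G, y * y = 1 → φ y = φ y₀ →
      ((y₀ : W ≃ₗ[ZMod 3] W) * (y : W ≃ₗ[ZMod 3] W)) ∈ BB E (y₀ : W ≃ₗ[ZMod 3] W) := by
    intro y hy hφ
    have hmem : ((y₀ * y : G) : W ≃ₗ[ZMod 3] W) ∈ E := by
      apply hker
      rw [map_mul, hφ, ← map_mul, hy₀, map_one]
    have e0 : ∀ v, (y₀ : W ≃ₗ[ZMod 3] W) ((y₀ : W ≃ₗ[ZMod 3] W) v) = v := fun v =>
      congrArg (fun f : G => (f : W ≃ₗ[ZMod 3] W) v) hy₀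
    have e1 : ∀ v, (y : W ≃ₗ[ZMod 3] W) ((y : W ≃ₗ[ZMod 3] W) v) = v := fun v =>
      congrArg (fun f : G => (f : W ≃ₗ[ZMod 3] W) v) hy
    refine ⟨hmem, ?_⟩
    rcases hsq _ hmem with h | h
    · left
      intro v
      have h1 : (y₀ : W ≃ₗ[ZMod 3] W) ((y : W ≃ₗ[ZMod 3] W) ((y₀ : W ≃ₗ[ZMod 3] W) ((y : W ≃ₗ[ZMod 3] W)
        ((y : W ≃ₗ[ZMod 3] W) v)))) = (y : W ≃ₗ[ZMod 3] W) v := h _
      rw [e1] at h1
      change (y₀ : W ≃ₗ[ZMod 3] W) ((y₀ : W ≃ₗ[ZMod 3] W) ((y : W ≃ₗ[ZMod 3] W) v)) =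
        (y₀ : W ≃ₗ[ZMod 3] W) ((y : W ≃ₗ[ZMod 3] W) ((y₀ : W ≃ₗ[ZMod 3] W) v))
      rw [e0, h1]
    · right
      intro v
      have h1 : (y₀ : W ≃ₗ[ZMod 3] W) ((y : W ≃ₗ[ZMod 3] W) ((y₀ : W ≃ₗ[ZMod 3] W) ((y : W ≃ₗ[ZMod 3] W)
        ((y : W ≃ₗ[ZMod 3] W) v)))) = -((y : W ≃ₗ[ZMod 3] W) v) := h _
      rw [e1] at h1
      change (y₀ : W ≃ₗ[ZMod 3] W) ((y₀ : W ≃ₗ[ZMod 3] W) ((y : W ≃ₗ[ZMod 3] W) v)) =
        -((y₀ : W ≃ₗ[ZMod 3] W) ((y : W ≃ₗ[ZMod 3] W) ((y₀ : W ≃ₗ[ZMod 3] W) v)))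
      rw [e0, h1, neg_neg]
  refine Nat.card_le_card_of_injective (fun y : {y : G | y * y = 1 ∧ φ y = φ y₀} =>
    (⟨(y₀ : W ≃ₗ[ZMod 3] W) * ((y : G) : W ≃ₗ[ZMod 3] W), key y.1 y.2.1 y.2.2⟩ : BB E (y₀ : W ≃ₗ[ZMod 3] W))) ?_
  intro a b hab
  apply Subtype.ext; apply Subtype.ext
  exact mul_left_cancel (congrArg Subtype.val hab)

/-- the fixed space of an involution anticommuting with some `n` in dimension 8 -/
theorem card_fx_le (hW : Nat.card W = 3 ^ 8) {y n : W ≃ₗ[ZMod 3] W} (hy : y * y = 1)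
    (hn : ∀ v : W, n (y v) = -(y (n v))) : Nat.card (fx y) - 1 ≤ 80 := by
  have h1 := card_fx_anti (p := 3) (by norm_num) hy hn
  rw [hW] at h1
  have h2 : Nat.card (fx y) ^ 2 = 81 ^ 2 := by rw [h1]; norm_num
  have h3 := Nat.pow_left_injective (by norm_num : 2 ≠ 0) h2
  omega

include ht in
/-- **the final count** -/
theorem final_count {E G : Subgroup (W ≃ₗ[ZMod 3] W)} (hE : E = Subgroup.closure (Set.range t)) (hEG : E ≤ G)
    (hcop : ¬ 3 ∣ Nat.card G) {h : ℕ} (hh : Half G h) (h2 : 2 ≤ h) (hm : 160 * h = Nat.card G)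
    (h32 : Nat.card E = 32) (hW : Nat.card W = 3 ^ 8)
    (hsq : ∀ x ∈ E, (∀ v, x (x v) = v) ∨ (∀ v : W, x (x v) = -v))
    (hrel : ∀ x ∈ E, ∀ k, rel t x k k) (hex : ∀ g ∈ G, ∀ k, ∃ j, rel t g k j)
    (hcen : ∀ g ∈ G, (∀ x ∈ E, g * x = x * g) → g ∈ E)
    (hinv : ∀ x ∈ E, x * x = 1 → (∀ v : W, x v = v) ∨ (∀ v : W, x v = -v) ∨
      ∃ k, x = t k ∨ ∀ v : W, x v = -(t k v)) : False := by
  classical
  obtain ⟨φ, hφ⟩ := exists_phi ht hex
  -- the kernel
  have hker : ∀ g : G, φ g = 1 → (g : W ≃ₗ[ZMod 3] W) ∈ E := by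
    intro g hg
    refine mem_of_rel ht hE hEG hcen g.2 fun k => ?_
    have h1 := hφ g k
    rw [hg] at h1
    exact h1
  have hker2 : φ.ker = E.subgroupOf G := by
    ext g
    rw [MonoidHom.mem_ker, Subgroup.mem_subgroupOf]
    refine ⟨hker g, fun hg => ?_⟩
    ext1 k
    exact rel_unique ht (hφ g k) (hrel _ hg k)
  have hR : Nat.card φ.range = 5 * h := by
    have h1 := Subgroup.card_mul_index φ.ker
    rw [Subgroup.index_ker, hker2, Nat.card_congr (Subgroup.subgroupOfEquivOfLe hEG).toEquiv, h32, ← hm] at h1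
    omega
  have h120 : 5 * h ∣ 120 := by
    rw [← hR]
    have h1 := Subgroup.card_subgroup_dvd_card φ.range
    rwa [Nat.card_perm, Nat.card_fin] at h1
  have h24 : h ∣ 24 := Nat.dvd_of_mul_dvd_mul_left (by norm_num : 0 < 5) (by simpa using h120)
  have h3 : ¬ 3 ∣ h := fun h3 => hcop (by rw [← hm]; exact Dvd.dvd.mul_left h3 160)
  have hh8 : h = 2 ∨ h = 4 ∨ h = 8 := by
    have h1 := Nat.le_of_dvd (by norm_num) h24
    interval_cases h <;> omega
  have h2h : 2 ∣ h := by omega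
  obtain ⟨hinvR, hmove⟩ := five_group hR hh8
  -- the involutions of `G`
  set I : Finset G := Finset.univ.filter (fun y : G => y * y = 1 ∧ y ≠ 1 ∧ ∃ v : W, v ≠ 0 ∧ (y : W ≃ₗ[ZMod 3] W) v = v)
    with hI
  -- involutions outside `E`
  have hfx : ∀ y ∈ I, Nat.card (fx (y : W ≃ₗ[ZMod 3] W)) - 1 ≤ 80 := by
    intro y hy
    rw [hI, Finset.mem_filter] at hy
    obtain ⟨-, hyy, hy1, v, hv, hyv⟩ := hy
    have hyy' : (y : W ≃ₗ[ZMod 3] W) * (y : W ≃ₗ[ZMod 3] W) = 1 := congrArg Subtype.val hyy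
    have e1 : ∀ v, (y : W ≃ₗ[ZMod 3] W) ((y : W ≃ₗ[ZMod 3] W) v) = v := fun v =>
      congrArg (fun f : W ≃ₗ[ZMod 3] W => f v) hyy'
    by_cases hs : φ y = 1
    · rcases hinv _ (hker y hs) hyy' with h1 | h1 | ⟨k, h1⟩
      · exact absurd (Subtype.ext (LinearEquiv.ext h1)) hy1
      · exfalso
        rw [h1 v] at hyv
        exact hv (zero_of_neg hyv.symm)
      · obtain ⟨j, hj⟩ := exists_ne k
        refine card_fx_le hW hyy' (n := t j) fun v => ?_
        rcases h1 with h1 | h1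
        · rw [h1]; exact antit ht hj v
        · rw [h1, h1, map_neg, neg_neg, antit ht hj v, neg_neg]
    · have h1 : ∃ a, φ y a ≠ a := by
        by_contra hc
        push Not at hc
        exact hs (Equiv.ext hc)
      obtain ⟨a, ha⟩ := h1
      refine card_fx_le hW hyy' (n := t a * t (φ y a)) fun v => ?_
      change t a (t (φ y a) ((y : W ≃ₗ[ZMod 3] W) v)) = -((y : W ≃ₗ[ZMod 3] W) (t a (t (φ y a) v)))
      rcases hφ y a with h1 | h1
      · have h4 : ∀ v, (y : W ≃ₗ[ZMod 3] W) (t (φ y a) v) = t a ((y : W ≃ₗ[ZMod 3] W) v) := by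
          intro v
          have h5 := h1 ((y : W ≃ₗ[ZMod 3] W) v)
          rw [e1] at h5
          have h6 := congrArg (y : W ≃ₗ[ZMod 3] W) h5
          rw [e1] at h6
          exact h6.symm
        rw [h1, h4, antit ht ha, neg_neg]
      · have h4 : ∀ v, (y : W ≃ₗ[ZMod 3] W) (t (φ y a) v) = -(t a ((y : W ≃ₗ[ZMod 3] W) v)) := by
          intro v
          have h5 := h1 ((y : W ≃ₗ[ZMod 3] W) v)
          rw [e1] at h5
          have h6 := congrArg (y : W ≃ₗ[ZMod 3] W) h5
          rw [e1, map_neg] at h6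
          rw [h6, neg_neg]
        rw [h1, h4, map_neg, neg_neg, antit ht ha, neg_neg]
  have hcard : I.card ≤ 50 := by
    -- the part in `E`
    set I₁ : Finset G := I.filter (fun y => φ y = 1) with hI₁
    set S : Finset (Equiv.Perm (Fin 5)) := Finset.univ.filter (fun s => s ∈ φ.range ∧ s * s = 1 ∧ s ≠ 1) with hS
    have hScard : S.card ≤ 5 := by
      have h1 : Nat.card {s : Equiv.Perm (Fin 5) | s ∈ φ.range ∧ s * s = 1 ∧ s ≠ 1} = S.card := by
        rw [hS, Nat.card_eq_fintype_card, Fintype.card_subtype]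
        rfl
      rw [← h1]; exact hinvR
    have hsub : I ⊆ I₁ ∪ S.biUnion (fun s => Finset.univ.filter (fun y : G => y * y = 1 ∧ φ y = s)) := by
      intro y hy
      rw [Finset.mem_union]
      by_cases hs : φ y = 1
      · exact Or.inl (Finset.mem_filter.2 ⟨hy, hs⟩)
      · right
        rw [hI, Finset.mem_filter] at hy
        rw [Finset.mem_biUnion]
        refine ⟨φ y, ?_, ?_⟩
        · rw [hS, Finset.mem_filter]
          exact ⟨Finset.mem_univ _, ⟨y, rfl⟩, by rw [← map_mul, hy.2.1, map_one], hs⟩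
        · rw [Finset.mem_filter]
          exact ⟨Finset.mem_univ _, hy.2.1, rfl⟩
    have hc1 : I₁.card ≤ 10 := by
      let F : Fin 5 × Bool → (W ≃ₗ[ZMod 3] W) := fun q => if q.2 then t q.1 else (t q.1).trans (LinearEquiv.neg (ZMod 3))
      have h1 : I₁.card ≤ (Finset.univ.image F).card := by
        refine Finset.card_le_card_of_injOn (fun y => (y : W ≃ₗ[ZMod 3] W)) ?_ (fun a _ b _ hab => Subtype.ext hab)
        intro y hy
        rw [Finset.mem_coe, hI₁, Finset.mem_filter, hI, Finset.mem_filter] at hy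
        obtain ⟨⟨-, hyy, hy1, v, hv, hyv⟩, hs⟩ := hy
        rw [Finset.mem_coe, Finset.mem_image]
        rcases hinv _ (hker y hs) (congrArg Subtype.val hyy) with h1 | h1 | ⟨k, h1⟩
        · exact absurd (Subtype.ext (LinearEquiv.ext h1)) hy1
        · exfalso
          rw [h1 v] at hyv
          exact hv (zero_of_neg hyv.symm)
        · rcases h1 with h1 | h1
          · exact ⟨(k, true), Finset.mem_univ _, h1.symm⟩
          · refine ⟨(k, false), Finset.mem_univ _, ?_⟩
            ext v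
            exact (h1 v).symm
      refine h1.trans (Finset.card_image_le.trans ?_)
      rw [Finset.card_univ, Fintype.card_prod, Fintype.card_fin, Fintype.card_bool]
    have hc2 : (S.biUnion (fun s => Finset.univ.filter (fun y : G => y * y = 1 ∧ φ y = s))).card ≤ 5 * 8 := by
      refine (Finset.card_biUnion_le_card_mul S _ 8 ?_).trans (Nat.mul_le_mul_right 8 hScard)
      intro s hs
      rw [hS, Finset.mem_filter] at hs
      by_cases he : ∃ y₀ : G, y₀ * y₀ = 1 ∧ φ y₀ = s
      · obtain ⟨y₀, hy₀, hys⟩ := he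
        obtain ⟨a, c, ha, hc, hca, hcs⟩ := hmove s hs.2.1 hs.2.2.1 hs.2.2.2
        have h8 : Nat.card (BB E (y₀ : W ≃ₗ[ZMod 3] W)) ≤ 8 := by
          refine card_BB ht (fun k => t_mem hE k) h32 (s := fun k => φ y₀ k) (fun k => hφ y₀ k) ?_ (a := a) (c := c) ?_ ?_
            hca ?_
          · intro k
            have h1 : (φ y₀ * φ y₀) k = k := by rw [← map_mul, hy₀, map_one]; rfl
            exact h1
          · rw [hys]; exact ha
          · rw [hys]; exact hc
          · rw [hys]; exact hcs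
        have h9 := card_fibre hEG hsq hker hy₀ h8
        rw [hys] at h9
        refine le_trans (le_of_eq ?_) h9
        rw [Nat.card_eq_fintype_card, Fintype.card_subtype]
        rfl
      · have h1 : Finset.univ.filter (fun y : G => y * y = 1 ∧ φ y = s) = ∅ := by
          rw [Finset.filter_eq_empty_iff]
          intro y _ hy
          exact he ⟨y, hy⟩
        rw [h1, Finset.card_empty]
        norm_num
    have h1 := Finset.card_le_card hsub
    have h2 := Finset.card_union_le I₁ (S.biUnion (fun s => Finset.univ.filter (fun y : G => y * y = 1 ∧ φ y = s)))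
    omega
  -- the covering
  have hcov : (Finset.univ.erase (0 : W)) ⊆
      I.biUnion (fun y => (Finset.univ.filter (fun v : W => v ≠ 0 ∧ v ∈ fx (y : W ≃ₗ[ZMod 3] W)))) := by
    intro v hv
    have hv0 := Finset.ne_of_mem_erase hv
    have _ : Fact (Nat.Prime 2) := ⟨Nat.prime_two⟩
    obtain ⟨y, hy⟩ := exists_prime_orderOf_dvd_card' (G := MulAction.stabilizer G v) 2 (by rw [hh v hv0]; exact h2h)
    have hy1 : y ≠ 1 := by
      intro h1
      rw [h1, orderOf_one] at hy
      norm_num at hy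
    have hyy : y * y = 1 := by
      have h1 := pow_orderOf_eq_one y
      rwa [hy, pow_two] at h1
    have hyv : ((y : G) : W ≃ₗ[ZMod 3] W) v = v := y.2
    rw [Finset.mem_biUnion]
    refine ⟨(y : G), ?_, ?_⟩
    · rw [hI, Finset.mem_filter]
      refine ⟨Finset.mem_univ _, congrArg Subtype.val hyy, fun h1 => hy1 (Subtype.ext h1), v, hv0, hyv⟩
    · rw [Finset.mem_filter, mem_fx]
      exact ⟨Finset.mem_univ _, hv0, hyv⟩
  have h4 := Finset.card_le_card hcov
  rw [Finset.card_erase_of_mem (Finset.mem_univ _), Finset.card_univ, ← Nat.card_eq_fintype_card, hW] at h4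
  have h5 : (I.biUnion (fun y => (Finset.univ.filter (fun v : W => v ≠ 0 ∧ v ∈ fx (y : W ≃ₗ[ZMod 3] W))))).card ≤
      I.card * 80 := by
    refine Finset.card_biUnion_le_card_mul I _ 80 ?_
    intro y hy
    rw [card_filter_sub]
    exact hfx y hy
  have h6 := h4.trans h5
  norm_num at h6
  omega

end count

end Cfsg.Agent.H789.HT
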