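import Cfsg.Agent.H789.HT.PNorm
import Cfsg.Agent.H960.HT.Clif
import Cfsg.Agent.H183.HT.Arith
import Cfsg.Agent.H990.HT.SolFull
import Cfsg.Agent.H669.HT.Frame

/-!
# S3577 (TEAM HT-E), P5: characteristic three, `E = 2^(1+4)` normal (helper789)
-/

set_option autoImplicit false
set_option linter.unusedSectionVars false

open scoped commutatorElement

namespace Cfsg.Agent.H789.HT

open Cfsg.Agent.H828.HT Cfsg.Agent.H662.HT Cfsg.Agent.H528.HT
open Cfsg.Agent.H960.HT (Irr irr_of_half)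

universe u

section arith

theorem arith_q {q m b : ℕ} (hq : q = 3 ^ b) (hq1 : 1 < q) (h1 : m ∣ 40 * (q - 1)) (h2 : m ∣ 10 * (q ^ 2 - 1))
    (h3 : 32 ∣ m) (h4 : q ^ 4 ≤ 2 * m ^ 2) : q = 3 ∨ (q = 9 ∧ m = 160) := by
  have h5 : m ≤ 40 * (q - 1) := Nat.le_of_dvd (by omega) h1
  have hb : b ≤ 3 := by
    by_contra hb
    have h6 : 81 ≤ q := by
      rw [hq]
      calc 81 = 3 ^ 4 := by norm_num
        _ ≤ 3 ^ b := Nat.pow_le_pow_right (by norm_num) (by omega)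
    have h7 : m ≤ 40 * q := h5.trans (Nat.mul_le_mul_left 40 (Nat.sub_le q 1))
    have h8 : m ^ 2 ≤ (40 * q) ^ 2 := Nat.pow_le_pow_left h7 2
    have h9 : q ^ 4 = q ^ 2 * q ^ 2 := by ring
    have h10 : 81 ^ 2 ≤ q ^ 2 := Nat.pow_le_pow_left h6 2
    nlinarith
  interval_cases b
  · norm_num at hq; omega
  · left; rw [hq]; norm_num
  · right
    norm_num at hq
    subst hq
    refine ⟨rfl, ?_⟩
    obtain ⟨k, rfl⟩ := h3
    norm_num at h1 h2 h4 h5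
    have hk : k ≤ 10 := by omega
    interval_cases k <;> omega
  · exfalso
    norm_num at hq
    subst hq
    have h6 := h3.trans h1
    norm_num at h6

end arith

section sym

variable [Fact (Nat.Prime 3)] {W : Type u} [AddCommGroup W] [Module (ZMod 3) W] [Nontrivial W] [Finite W]
  {E : Subgroup (W ≃ₗ[ZMod 3] W)}

theorem center_pm (H : Sym 2 2 E W) (hz : Nat.card (Subgroup.center E) = 2) {z : E}
    (hz' : z ∈ Subgroup.center E) : (∀ v : W, (z : W ≃ₗ[ZMod 3] W) v = v) ∨ ∀ v : W, (z : W ≃ₗ[ZMod 3] W) v = -v := by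
  by_cases h1 : z = 1
  · left; intro v; rw [h1]; rfl
  · right
    intro v
    have h2 : z ^ 2 = 1 := by
      have h3 : (⟨z, hz'⟩ : Subgroup.center E) ^ Nat.card (Subgroup.center E) = 1 := pow_card_eq_one'
      rw [hz] at h3
      exact congrArg Subtype.val h3
    have h3 : ∀ v : W, (z : W ≃ₗ[ZMod 3] W) ((z : W ≃ₗ[ZMod 3] W) v) = v := by
      intro v
      rw [pow_two] at h2
      exact congrArg (fun f : E => (f : W ≃ₗ[ZMod 3] W) v) h2
    have h4 : v + (z : W ≃ₗ[ZMod 3] W) v = 0 := by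
      refine H.semi z hz' h1 _ ?_
      change (z : W ≃ₗ[ZMod 3] W) (v + (z : W ≃ₗ[ZMod 3] W) v) = v + (z : W ≃ₗ[ZMod 3] W) v
      rw [map_add, h3, add_comm]
    exact (eq_neg_of_add_eq_zero_right h4)

theorem sq_pm (H : Sym 2 2 E W) (hz : Nat.card (Subgroup.center E) = 2) :
    ∀ x ∈ E, (∀ v, x (x v) = v) ∨ (∀ v : W, x (x v) = -v) := by
  intro x hx
  have h1 := H.exp ⟨x, hx⟩
  rw [pow_two] at h1
  rcases center_pm H hz h1 with h | h
  · left; intro v; exact h v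
  · right; intro v; exact h v

theorem rel_E (H : Sym 2 2 E W) (hz : Nat.card (Subgroup.center E) = 2) {t : Fin 5 → (W ≃ₗ[ZMod 3] W)}
    (htE : ∀ k, t k ∈ E) : ∀ x ∈ E, ∀ k, rel t x k k := by
  intro x hx k
  have h1 := H.comm ⟨x, hx⟩ ⟨t k, htE k⟩
  have e : ∀ v : W, x (t k v) = ((⁅(⟨x, hx⟩ : E), (⟨t k, htE k⟩ : E)⁆ : E) : W ≃ₗ[ZMod 3] W) (t k (x v)) := by
    intro v
    have h2 : (⁅(⟨x, hx⟩ : E), (⟨t k, htE k⟩ : E)⁆ : E) * ⟨t k, htE k⟩ * ⟨x, hx⟩ = ⟨x, hx⟩ * ⟨t k, htE k⟩ := by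
      rw [commutatorElement_def]; group
    exact (congrArg (fun f : E => (f : W ≃ₗ[ZMod 3] W) v) h2).symm
  rcases center_pm H hz h1 with h | h
  · left; intro v; rw [e, h]
  · right; intro v; rw [e, h]

theorem exists_neg (H : Sym 2 2 E W) (hz : Nat.card (Subgroup.center E) = 2) :
    ∃ z ∈ E, ∀ v : W, z v = -v := by
  have h1 : 1 < Nat.card (Subgroup.center E) := by rw [hz]; norm_num
  have _ : Nontrivial (Subgroup.center E) := Finite.one_lt_card_iff_nontrivial.1 h1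
  obtain ⟨z, hz1⟩ := exists_ne (1 : Subgroup.center E)
  refine ⟨((z : E) : W ≃ₗ[ZMod 3] W), (z : E).2, ?_⟩
  rcases center_pm H hz z.2 with h | h
  · exfalso
    exact hz1 (Subtype.ext (Subtype.ext (LinearEquiv.ext h)))
  · exact h

theorem card_E (H : Sym 2 2 E W) (hz : Nat.card (Subgroup.center E) = 2) : Nat.card E = 32 := by
  rw [H.card, hz]; norm_num

/-- `G` permutes the `± t_k` -/
theorem exists_rel {G : Subgroup (W ≃ₗ[ZMod 3] W)} {t : Fin 5 → (W ≃ₗ[ZMod 3] W)} (ht : Frame5 t)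
    (htE : ∀ k, t k ∈ E) (hnE : ∀ g ∈ G, ∀ x ∈ E, g * x * g⁻¹ ∈ E)
    (hinv : ∀ x ∈ E, x * x = 1 → (∀ v : W, x v = v) ∨ (∀ v : W, x v = -v) ∨
      ∃ k, x = t k ∨ ∀ v : W, x v = -(t k v)) : ∀ g ∈ G, ∀ k, ∃ j, rel t g k j := by
  intro g hg k
  have e : ∀ v : W, (g * t k * g⁻¹) (g v) = g (t k v) := by
    intro v
    change g (t k (g⁻¹ (g v))) = g (t k v)
    have h2 : g⁻¹ (g v) = v := g.symm_apply_apply v
    rw [h2]
  have hsq : (g * t k * g⁻¹) * (g * t k * g⁻¹) = 1 := by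
    calc (g * t k * g⁻¹) * (g * t k * g⁻¹) = g * (t k * t k) * g⁻¹ := by group
      _ = 1 := by rw [ht.sq]; group
  obtain ⟨v₀, hv₀⟩ := exists_ne (0 : W)
  obtain ⟨j, hj⟩ := exists_ne k
  have hanti := antit ht hj
  rcases hinv _ (hnE g hg _ (htE k)) hsq with h | h | ⟨j, h⟩
  · exfalso
    have h1 : ∀ v, t k v = v := by
      intro v
      have h2 := e v
      rw [h] at h2
      exact (g.injective h2).symm
    have h2 := hanti v₀
    rw [h1, h1] at h2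
    have h3 := zero_of_neg h2
    exact hv₀ (by rw [← sqt ht j v₀, h3, map_zero])
  · exfalso
    have h1 : ∀ v, t k v = -v := by
      intro v
      have h2 := e v
      rw [h, ← map_neg] at h2
      exact (g.injective h2).symm
    have h2 := hanti v₀
    rw [h1, h1, map_neg, neg_neg] at h2
    have h3 := zero_of_neg h2.symm
    exact hv₀ (by rw [← sqt ht j v₀, h3, map_zero])
  · refine ⟨j, ?_⟩
    rcases h with h | h
    · left; intro v; rw [← e, h]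
    · right; intro v; rw [← e, h]

/-- in a cyclic group elements of the same order generate the same subgroup -/
theorem mem_zpowers_of_order {X : Type*} [Group X] {A : Subgroup X} [Finite A] (hc : IsCyclic A) {a b : X}
    (ha : a ∈ A) (hb : b ∈ A) (hab : orderOf b = orderOf a) : b ∈ Subgroup.zpowers a := by
  classical
  have _ : Fintype A := Fintype.ofFinite A
  set a' : A := ⟨a, ha⟩ with ha'
  set b' : A := ⟨b, hb⟩ with hb'
  have hoa : orderOf a' = orderOf a := by rw [ha', Subgroup.orderOf_mk]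
  have hob : orderOf b' = orderOf a := by rw [hb', Subgroup.orderOf_mk, hab]
  have hpos : 0 < orderOf a' := orderOf_pos a'
  have h1 := IsCyclic.card_pow_eq_one_le (α := A) (n := orderOf a') hpos
  have h2 : (Finset.univ.filter (fun x : A => x ∈ Subgroup.zpowers a')) ⊆
      Finset.univ.filter (fun x : A => x ^ orderOf a' = 1) := by
    intro x hx
    rw [Finset.mem_filter] at hx ⊢
    obtain ⟨k, hk⟩ := hx.2
    refine ⟨Finset.mem_univ _, ?_⟩
    rw [← hk]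
    change (a' ^ k) ^ orderOf a' = 1
    rw [← zpow_natCast, ← zpow_mul, mul_comm, zpow_mul, zpow_natCast, pow_orderOf_eq_one, one_zpow]
  have h3 : (Finset.univ.filter (fun x : A => x ∈ Subgroup.zpowers a')).card = orderOf a' := by
    rw [← Nat.card_zpowers, Nat.card_eq_fintype_card, Fintype.card_subtype]
  have h4 := Finset.eq_of_subset_of_card_le h2 (by rw [h3]; exact h1)
  have h5 : b' ∈ Finset.univ.filter (fun x : A => x ^ orderOf a' = 1) := by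
    rw [Finset.mem_filter]
    refine ⟨Finset.mem_univ _, ?_⟩
    rw [hoa, ← hob, pow_orderOf_eq_one]
  rw [← h4, Finset.mem_filter] at h5
  obtain ⟨k, hk⟩ := h5.2
  exact ⟨k, congrArg Subtype.val hk⟩

/-- a cyclic normal subgroup of an irreducible group is semiregular -/
theorem semi_of_irr {G A : Subgroup (W ≃ₗ[ZMod 3] W)} (hirr : Irr G) (hnA : ∀ g ∈ G, ∀ a ∈ A, g * a * g⁻¹ ∈ A)
    (hcyc : IsCyclic A) : ∀ a ∈ A, a ≠ 1 → ∀ v : W, a v = v → v = 0 := by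
  intro a ha ha1 v hv
  have h1 : ∀ g ∈ G, ∀ v ∈ fx a, g v ∈ fx a := by
    intro g hg v hv
    rw [mem_fx] at hv ⊢
    have hb : g⁻¹ * a * g ∈ A := by
      have := hnA g⁻¹ (G.inv_mem hg) a ha
      rwa [inv_inv] at this
    have hob : orderOf (g⁻¹ * a * g) = orderOf a := by
      have h2 : g⁻¹ * a * g = g⁻¹ * a * (g⁻¹)⁻¹ := by rw [inv_inv]
      rw [h2]
      exact orderOf_injective (MulAut.conj g⁻¹).toMonoidHom (MulAut.conj g⁻¹).injective a
    obtain ⟨k, hk⟩ := mem_zpowers_of_order hcyc ha hb hob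
    have h3 : (g⁻¹ * a * g) v = v := by
      have h4 : g⁻¹ * a * g = a ^ k := hk.symm
      rw [h4]
      have h5 : a ∈ MulAction.stabilizer (W ≃ₗ[ZMod 3] W) v := hv
      exact (MulAction.stabilizer (W ≃ₗ[ZMod 3] W) v).zpow_mem h5 k
    have h4 : g⁻¹ (a (g v)) = v := h3
    have h5 := congrArg g h4
    have h6 : g (g⁻¹ (a (g v))) = a (g v) := g.apply_symm_apply _
    rw [h6] at h5
    exact h5
  rcases hirr (fx a) h1 with h | h
  · have h2 : v ∈ fx a := mem_fx.2 hv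
    rw [h] at h2
    exact (Submodule.mem_bot _).1 h2
  · exfalso
    apply ha1
    ext v
    have h2 : v ∈ fx a := by rw [h]; trivial
    exact mem_fx.1 h2

/-- `C_G(E) ≤ E` -/
theorem cen_le (H : Sym 2 2 E W) (hz : Nat.card (Subgroup.center E) = 2) {G A : Subgroup (W ≃ₗ[ZMod 3] W)}
    (hirr : Irr G) (hnA : ∀ g ∈ G, ∀ a ∈ A, g * a * g⁻¹ ∈ A) (hcyc : IsCyclic A) (h4 : ¬ 4 ∣ Nat.card A)
    (hAE : ∀ a ∈ A, ∀ x ∈ E, a * x = x * a)
    (hC : ∀ g ∈ G, (∀ x ∈ E, g * x = x * g) → (∀ a ∈ A, g * a = a * g) → g ∈ A)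
    {t : Fin 5 → (W ≃ₗ[ZMod 3] W)} (htE : ∀ k, t k ∈ E) (hL : Nat.card (LL t ⊤) = 9) :
    ∀ g ∈ G, (∀ x ∈ E, g * x = x * g) → g ∈ E := by
  classical
  have hsemi := semi_of_irr hirr hnA hcyc
  have hcomm : ∀ a ∈ A, ∀ k, ∀ v : W, a (t k v) = t k (a v) := fun a ha k v =>
    congrArg (fun f : W ≃ₗ[ZMod 3] W => f v) (hAE a ha _ (htE k))
  -- `|A|` divides 8
  have hA8 : Nat.card A ∣ 8 := by
    have hH : Half A 1 := by
      intro v hv
      rw [Nat.card_eq_one_iff_unique]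
      refine ⟨⟨fun x y => ?_⟩, ⟨1⟩⟩
      have h1 : ∀ x : MulAction.stabilizer A v, x = 1 := by
        intro x
        by_contra hx
        have h2 : ((x : A) : W ≃ₗ[ZMod 3] W) ≠ 1 := fun h => hx (Subtype.ext (Subtype.ext h))
        exact hv (hsemi _ (x : A).2 h2 v x.2)
      rw [h1 x, h1 y]
    have h1 := dvd_invariant hH one_pos (m := Nat.card A) (by rw [mul_one]) {w : W | w ≠ 0 ∧ w ∈ LL t ⊤}
      (fun h => h.1 rfl) (by
        rintro a ha w ⟨hw0, hw⟩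
        rw [mem_LL] at hw
        refine ⟨fun h => hw0 (by rw [← a.symm_apply_apply w, h, map_zero]), mem_LL.2 ⟨trivial, ?_, ?_⟩⟩
        · rw [← hcomm a ha, hw.2.1]
        · rw [xx_apply, ← hcomm a ha, ← hcomm a ha, ← hcomm a ha, ← hcomm a ha, ← map_add, ← xx_apply, hw.2.2])
    have h2 : Nat.card {w : W | w ≠ 0 ∧ w ∈ LL t ⊤} = 8 := by
      have _ : Fintype W := Fintype.ofFinite W
      have h3 := card_filter_sub (W := W) (LL t ⊤)
      rw [hL] at h3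
      rw [Nat.card_eq_fintype_card, Fintype.card_subtype]
      exact h3
    rwa [h2] at h1
  have hA2 : Nat.card A = 1 ∨ Nat.card A = 2 := by
    have h1 := Nat.le_of_dvd (by norm_num) hA8
    have h0 : 0 < Nat.card A := Nat.card_pos
    generalize Nat.card A = n at *
    interval_cases n <;> omega
  have hApm : ∀ a ∈ A, (∀ v : W, a v = v) ∨ ∀ v : W, a v = -v := by
    intro a ha
    have h1 : a * a = 1 := by
      have h2 : (⟨a, ha⟩ : A) ^ Nat.card A = 1 := pow_card_eq_one'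
      rcases hA2 with h | h
      · rw [h, pow_one] at h2
        have h3 : a = 1 := congrArg Subtype.val h2
        rw [h3, mul_one]
      · rw [h, pow_two] at h2
        exact congrArg Subtype.val h2
    by_cases h2 : a = 1
    · left; intro v; rw [h2]; rfl
    · right
      intro v
      have h3 : a (a v) = v := congrArg (fun f : W ≃ₗ[ZMod 3] W => f v) h1
      have h5 : v + a v = 0 := by
        refine hsemi a ha h2 _ ?_
        rw [map_add, h3, add_comm]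
      exact eq_neg_of_add_eq_zero_right h5
  intro g hg hgE
  have h1 : g ∈ A := by
    refine hC g hg hgE fun a ha => ?_
    ext v
    change g (a v) = a (g v)
    rcases hApm a ha with h | h
    · rw [h, h]
    · rw [h, h, map_neg]
  obtain ⟨z, hzE, hzv⟩ := exists_neg H hz
  rcases hApm g h1 with h | h
  · have h2 : g = 1 := LinearEquiv.ext h
    rw [h2]; exact E.one_mem
  · have h2 : g = z := by
      ext v
      rw [h, hzv]
    rw [h2]; exact hzE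

end sym

section main

variable [Fact (Nat.Prime 3)] {W : Type u} [AddCommGroup W] [Module (ZMod 3) W] [Nontrivial W] [Finite W]
  {E : Subgroup (W ≃ₗ[ZMod 3] W)}

/-- the minus type -/
theorem p_three_minus {G A E : Subgroup (W ≃ₗ[ZMod 3] W)} (hEG : E ≤ G) (hcop : ¬ 3 ∣ Nat.card G)
    {h : ℕ} (hh : Half G h) (h2 : 2 ≤ h)
    (hnA : ∀ g ∈ G, ∀ a ∈ A, g * a * g⁻¹ ∈ A) (hnE : ∀ g ∈ G, ∀ x ∈ E, g * x * g⁻¹ ∈ E)
    (hcyc : IsCyclic A) (h4 : ¬ 4 ∣ Nat.card A) (hAE : ∀ a ∈ A, ∀ x ∈ E, a * x = x * a)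
    (hC : ∀ g ∈ G, (∀ x ∈ E, g * x = x * g) → (∀ a ∈ A, g * a = a * g) → g ∈ A)
    (H : Sym 2 2 E W) (hz : Nat.card (Subgroup.center E) = 2)
    {t : Fin 5 → (W ≃ₗ[ZMod 3] W)} (ht : Frame5 t) (htE : ∀ k, t k ∈ E) (hE : E = Subgroup.closure (Set.range t))
    (hinv : ∀ x ∈ E, x * x = 1 → (∀ v : W, x v = v) ∨ (∀ v : W, x v = -v) ∨
      ∃ k, x = t k ∨ ∀ v : W, x v = -(t k v))
    {Q : ℕ} (hQ : 1 < Q) (hWQ : Nat.card W = Q ^ 2) (hspec : Nat.card (spec 2 1 E W) = 10 * (Q - 1))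
    (hfree : Q = 9 ∨ ∃ v : W, v ≠ 0 ∧ MulAction.stabilizer E v = ⊥) : Nat.card W = 81 := by
  rcases hfree with h9 | hfree
  · rw [hWQ, h9]; norm_num
  have h0 : 0 < h := by omega
  obtain ⟨m, hm, hm0⟩ := exists_m hh (exists_ne (0 : W))
  have h32 : 32 ∣ m := by
    have := dvd_of_free hEG hnE hh h0 hm hfree
    rwa [card_E H hz] at this
  have hspec' : m ∣ 10 * (Q - 1) := by
    rw [← hspec]; exact dvd_spec hnE hh h0 hm 2 1
  have hsize := card_le hcop hh h2 hm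
  have hcardW : Nat.card W = Nat.card (LL t ⊤) ^ 4 := by
    rw [← card_four ht (U := ⊤) (fun _ _ _ => trivial)]
    exact (Nat.card_congr Submodule.topEquiv.toEquiv).symm
  set q := Nat.card (LL t ⊤) with hq
  have hqb := card_eq_pow (p := 3) (LL t ⊤)
  rw [← hq] at hqb
  have hQq : Q = q ^ 2 := by
    have h5 : Q ^ 2 = (q ^ 2) ^ 2 := by rw [← hWQ, hcardW]; ring
    exact Nat.pow_left_injective (by norm_num : 2 ≠ 0) h5
  have hq1 : 1 < q := by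
    by_contra hc
    have h5 : q ≤ 1 := by omega
    have h6 : q ^ 2 ≤ 1 ^ 2 := Nat.pow_le_pow_left h5 2
    omega
  have hsmall := card_small ht hE
  have h40 : Nat.card {v : W | v ≠ 0 ∧ Nat.card (cyc E v) = 81} = 40 * (q - 1) := by
    rw [← hq] at hsmall
    omega
  have hm40 : m ∣ 40 * (q - 1) := by
    rw [← h40]
    refine dvd_invariant hh h0 hm _ (fun h => h.1 rfl) ?_
    rintro g hg v ⟨hv0, hv⟩
    refine ⟨fun h => hv0 (by rw [← g.symm_apply_apply v, h, map_zero]), ?_⟩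
    rw [card_cyc_smul (hnE g hg) (fun x hx => by
      have := hnE g⁻¹ (G.inv_mem hg) x hx
      rwa [inv_inv] at this) v]
    exact hv
  rw [hQq] at hspec'
  rw [hcardW] at hsize
  rcases arith_q hqb hq1 hm40 hspec' h32 hsize with h5 | ⟨h5, h6⟩
  · rw [hcardW, h5]; norm_num
  · exfalso
    have hirr := irr_of_half hcop hh h2
    rw [h6] at hm
    refine final_count ht hE hEG hcop hh h2 hm (card_E H hz) (by rw [hcardW, h5]; norm_num) (sq_pm H hz)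
      (rel_E H hz htE) (exists_rel ht htE hnE hinv)
      (cen_le H hz hirr hnA hcyc h4 hAE hC htE (by rw [← hq, h5])) hinv

/-- P5 from the pieces A2, A5, B1 -/
theorem p_three_of {G A E : Subgroup (W ≃ₗ[ZMod 3] W)} (hEG : E ≤ G) (hcop : ¬ 3 ∣ Nat.card G)
    {h : ℕ} (hh : Half G h) (h2 : 2 ≤ h)
    (hnA : ∀ g ∈ G, ∀ a ∈ A, g * a * g⁻¹ ∈ A) (hnE : ∀ g ∈ G, ∀ x ∈ E, g * x * g⁻¹ ∈ E)
    (hcyc : IsCyclic A) (h4 : ¬ 4 ∣ Nat.card A) (hAE : ∀ a ∈ A, ∀ x ∈ E, a * x = x * a)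
    (hC : ∀ g ∈ G, (∀ x ∈ E, g * x = x * g) → (∀ a ∈ A, g * a = a * g) → g ∈ A)
    (H : Sym 2 2 E W) (hz : Nat.card (Subgroup.center E) = 2)
    (a2 : ∃ σ : ℤ, (σ = 2 ^ 2 ∨ σ = -2 ^ 2) ∧ ∀ S : Subgroup E, S ⊓ Subgroup.center E = ⊥ →
      (Nat.card (sol 2 S) : ℤ) * Nat.card S = 2 ^ (2 * 2) + σ * Nat.card S)
    (a5p : Nat.card (sol 2 (⊥ : Subgroup E)) = 2 ^ (2 * 2) + 2 ^ 2 →
      ∃ Q : ℕ, 1 < Q ∧ Nat.card W = Q ^ (2 ^ 2) ∧
      Nat.card (spec 2 2 E W) = 2 ^ 2 * (∏ i ∈ Finset.range 2, (2 ^ i + 1)) * (Q - 1) ∧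
      ∃ v : W, v ≠ 0 ∧ MulAction.stabilizer E v = ⊥)
    (a5m : Nat.card (sol 2 (⊥ : Subgroup E)) + 2 ^ 2 = 2 ^ (2 * 2) →
      ∃ Q : ℕ, 1 < Q ∧ 8 ∣ Q - 1 ∧ Nat.card W = Q ^ (2 ^ (2 - 1)) ∧
      Nat.card (spec 2 (2 - 1) E W) = 2 ^ (2 - 1) * (∏ i ∈ Finset.Icc 2 2, (2 ^ i + 1)) * (Q - 1) ∧
      ((2 = 2 ∧ Q = 9) ∨ ∃ v : W, v ≠ 0 ∧ MulAction.stabilizer E v = ⊥))
    (b1 : Nat.card (sol 2 (⊥ : Subgroup E)) = 12 →
      ∃ t : Fin 5 → (W ≃ₗ[ZMod 3] W), Frame5 t ∧ (∀ k, t k ∈ E) ∧ E = Subgroup.closure (Set.range t) ∧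
      ∀ x ∈ E, x * x = 1 → (∀ v : W, x v = v) ∨ (∀ v : W, x v = -v) ∨ ∃ k, x = t k ∨ ∀ v : W, x v = -(t k v)) :
    Nat.card W = 81 := by
  obtain ⟨σ, hσ, hs⟩ := a2
  have hs0 := hs ⊥ (by rw [bot_inf_eq])
  rw [Subgroup.card_bot, Nat.cast_one, mul_one, mul_one] at hs0
  have h0 : 0 < h := by omega
  rcases hσ with rfl | rfl
  · exfalso
    have h20 : Nat.card (sol 2 (⊥ : Subgroup E)) = 2 ^ (2 * 2) + 2 ^ 2 := by
      have : (Nat.card (sol 2 (⊥ : Subgroup E)) : ℤ) = ((2 ^ (2 * 2) + 2 ^ 2 : ℕ) : ℤ) := by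
        rw [hs0]; norm_num
      exact_mod_cast this
    obtain ⟨Q, hQ, hWQ, hspec, hfree⟩ := a5p h20
    obtain ⟨m, hm, hm0⟩ := exists_m hh (exists_ne (0 : W))
    refine Cfsg.Agent.H183.HT.plus_arith (a := 2) (Q := Q) (m := m) le_rfl hQ ?_ ?_ ?_ ?_
    · rw [← hspec]; exact dvd_spec hnE hh h0 hm 2 2
    · have := dvd_of_free hEG hnE hh h0 hm hfree
      rwa [card_E H hz] at this
    · rw [← hWQ]; exact dvd_card_sub_one hh h0 hm
    · rw [← hWQ]; exact card_le hcop hh h2 hm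
  · have h12 : Nat.card (sol 2 (⊥ : Subgroup E)) = 12 := by
      have : (Nat.card (sol 2 (⊥ : Subgroup E)) : ℤ) = ((12 : ℕ) : ℤ) := by
        rw [hs0]; norm_num
      exact_mod_cast this
    obtain ⟨Q, hQ, -, hWQ, hspec, hfree⟩ := a5m (by rw [h12]; norm_num)
    obtain ⟨t, ht, htE, hE, hinv⟩ := b1 h12
    refine p_three_minus hEG hcop hh h2 hnA hnE hcyc h4 hAE hC H hz ht htE hE hinv hQ (by simpa using hWQ) ?_ ?_
    · rw [hspec]; simp
    · rcases hfree with h5 | h5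
      · exact Or.inl h5.2
      · exact Or.inr h5

/-- P5 from A5 (`numbers_plus`, `numbers_minus`) -/
theorem p_three_of_numbers {G A E : Subgroup (W ≃ₗ[ZMod 3] W)} (hEG : E ≤ G) (hcop : ¬ 3 ∣ Nat.card G)
    {h : ℕ} (hh : Half G h) (h2 : 2 ≤ h)
    (hnA : ∀ g ∈ G, ∀ a ∈ A, g * a * g⁻¹ ∈ A) (hnE : ∀ g ∈ G, ∀ x ∈ E, g * x * g⁻¹ ∈ E)
    (hcyc : IsCyclic A) (h4 : ¬ 4 ∣ Nat.card A) (hAE : ∀ a ∈ A, ∀ x ∈ E, a * x = x * a)
    (hC : ∀ g ∈ G, (∀ x ∈ E, g * x = x * g) → (∀ a ∈ A, g * a = a * g) → g ∈ A)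
    (H : Sym 2 2 E W) (hz : Nat.card (Subgroup.center E) = 2)
    (a5p : Nat.card (sol 2 (⊥ : Subgroup E)) = 2 ^ (2 * 2) + 2 ^ 2 →
      ∃ Q : ℕ, 1 < Q ∧ Nat.card W = Q ^ (2 ^ 2) ∧
      Nat.card (spec 2 2 E W) = 2 ^ 2 * (∏ i ∈ Finset.range 2, (2 ^ i + 1)) * (Q - 1) ∧
      ∃ v : W, v ≠ 0 ∧ MulAction.stabilizer E v = ⊥)
    (a5m : Nat.card (sol 2 (⊥ : Subgroup E)) + 2 ^ 2 = 2 ^ (2 * 2) →
      ∃ Q : ℕ, 1 < Q ∧ 8 ∣ Q - 1 ∧ Nat.card W = Q ^ (2 ^ (2 - 1)) ∧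
      Nat.card (spec 2 (2 - 1) E W) = 2 ^ (2 - 1) * (∏ i ∈ Finset.Icc 2 2, (2 ^ i + 1)) * (Q - 1) ∧
      ((2 = 2 ∧ Q = 9) ∨ ∃ v : W, v ≠ 0 ∧ MulAction.stabilizer E v = ⊥)) :
    Nat.card W = 81 := by
  refine p_three_of hEG hcop hh h2 hnA hnE hcyc h4 hAE hC H hz (Cfsg.Agent.H990.HT.Sym_sol_two H hz) a5p a5m fun h12 => ?_
  obtain ⟨t, ht, h1⟩ := Cfsg.Agent.H669.HT.exists_frame (p := 3) (by norm_num) H hz h12
  exact ⟨t, ⟨ht.sq, ht.anti, ht.prod⟩, h1⟩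

end main

end Cfsg.Agent.H789.HT
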